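import Cfsg.Agent.CharP.Climb
import Cfsg.Agent.LocalP.AxB
import Cfsg.Agent.Cores.GenFitting
import Cfsg.Agent.Constrained.Fitting
import Cfsg.Agent.Balance.ExtendedLayer
import Cfsg.Agent.LocalCharP.NoComponent

/-!
Cores of the involution centralizers of an elementary abelian 2-group one of whose involutions has a
centralizer of characteristic 2.
-/

set_option autoImplicit false

namespace CfsgLib.CoreGen

variable {G : Type*} [Group G] [Finite G]

omit [Finite G] in
theorem mem_zpowers_sq {u : G} (h : Odd (orderOf u)) : u ∈ Subgroup.zpowers (u * u) := by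
  obtain ⟨k, hk⟩ := h
  refine Subgroup.mem_zpowers_iff.mpr ⟨(k + 1 : ℕ), ?_⟩
  rw [zpow_natCast, ← sq, ← pow_mul, show 2 * (k + 1) = orderOf u + 1 by omega, pow_succ,
    pow_orderOf_eq_one, one_mul]

omit [Finite G] in
/-- An element of odd order commutes with whatever its square commutes with. -/
theorem commute_of_sq {u v : G} (h : Odd (orderOf u)) (hc : Commute (u * u) v) : Commute u v := by
  obtain ⟨i, hi⟩ := Subgroup.mem_zpowers_iff.mp (mem_zpowers_sq h)
  rw [← hi]
  exact hc.zpow_left i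

/-- A fixed-point-free involution inverts a group of odd order. -/
theorem inverts_of_fixed_point_free {R : Subgroup G} {z : G} (hz : z * z = 1)
    (hzR : z ∈ Subgroup.normalizer (R : Set G))
    (hfree : ∀ u ∈ R, z * u = u * z → u = 1) : ∀ w ∈ R, z * w * z = w⁻¹ := by
  have hzi : z⁻¹ = z := inv_eq_of_mul_eq_one_right hz
  have hmem : ∀ u ∈ R, u⁻¹ * (z * u * z) ∈ R := fun u hu => mul_mem (inv_mem hu) (by
    simpa [hzi] using (Subgroup.mem_normalizer_iff.mp hzR u).mp hu)
  set φ : ↥R → ↥R := fun u => ⟨(u : G)⁻¹ * (z * u * z), hmem u u.2⟩ with hφ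
  have hinj : Function.Injective φ := by
    intro a b h
    have h' : (a : G)⁻¹ * (z * a * z) = (b : G)⁻¹ * (z * b * z) := congrArg Subtype.val h
    have h1 : z * ((b : G) * (a : G)⁻¹) = ((b : G) * (a : G)⁻¹) * z := by
      have h2 : (b : G) * ((a : G)⁻¹ * (z * a * z)) * (z * (a : G)⁻¹) =
          (b : G) * ((b : G)⁻¹ * (z * b * z)) * (z * (a : G)⁻¹) := by rw [h']
      calc z * ((b : G) * (a : G)⁻¹) = z * b * (z * z) * (a : G)⁻¹ := by rw [hz]; group
        _ = (b : G) * ((b : G)⁻¹ * (z * b * z)) * (z * (a : G)⁻¹) := by group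
        _ = (b : G) * ((a : G)⁻¹ * (z * a * z)) * (z * (a : G)⁻¹) := h2.symm
        _ = (b : G) * (a : G)⁻¹ * z * a * (z * z) * (a : G)⁻¹ := by group
        _ = ((b : G) * (a : G)⁻¹) * z := by rw [hz]; group
    exact Subtype.ext (mul_inv_eq_one.mp (hfree _ (mul_mem b.2 (inv_mem a.2)) h1)).symm
  intro w hw
  obtain ⟨u, hu⟩ := (Finite.injective_iff_surjective.mp hinj) ⟨w, hw⟩
  have hu' : (u : G)⁻¹ * (z * u * z) = w := congrArg Subtype.val hu
  rw [← hu']
  calc z * ((u : G)⁻¹ * (z * u * z)) * z = z * (u : G)⁻¹ * z * u * (z * z) := by group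
    _ = z⁻¹ * (u : G)⁻¹ * z⁻¹ * u := by rw [hz, hzi, mul_one]
    _ = ((u : G)⁻¹ * (z * u * z))⁻¹ := by group

omit [Finite G] in
/-- A subgroup inverted by an element is abelian. -/
theorem commute_of_inverted {R : Subgroup G} {z : G} (hz : z * z = 1)
    (h : ∀ w ∈ R, z * w * z = w⁻¹) {a b : G} (ha : a ∈ R) (hb : b ∈ R) : Commute a b := by
  have h1 : z * (a * b) * z = (z * a * z) * (z * b * z) := by
    calc z * (a * b) * z = z * a * (z * z) * b * z := by rw [hz]; group
      _ = (z * a * z) * (z * b * z) := by group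
  rw [h _ (mul_mem ha hb), h a ha, h b hb, ← mul_inv_rev] at h1
  exact inv_injective h1

/-- An odd-order subgroup normalized by `C(z) ∩ C(y)` meets it trivially when `C(z)` has
characteristic 2. -/
theorem eq_one_of_mem {z y : G} (hy : y * y = 1) (hzy : z * y = y * z)
    (hchar : CfsgLib.CharPClimb.CharP 2 (Subgroup.centralizer ({z} : Set G)))
    {R : Subgroup G} (hodd : Odd (Nat.card ↥R))
    (hn : ∀ c : G, c * z = z * c → c * y = y * c → ∀ r ∈ R, c * r * c⁻¹ ∈ R)
    {u : G} (hu : u ∈ R) (huz : u * z = z * u) (huy : u * y = y * u) : u = 1 := by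
  have hyp : IsPGroup 2 (Subgroup.zpowers y) := by
    rintro ⟨w, hw⟩
    obtain ⟨i, rfl⟩ := Subgroup.mem_zpowers_iff.mp hw
    exact ⟨1, Subtype.ext (by
      show (y ^ i) ^ (2 ^ 1) = 1
      rw [pow_one, sq, ← zpow_add, ← two_mul, zpow_mul, zpow_two, hy, one_zpow])⟩
  set H := Subgroup.centralizer ({z} : Set G) ⊓ Subgroup.centralizer (Subgroup.zpowers y : Set G) with hH
  have hH' : CfsgLib.CharPClimb.CharP 2 H :=
    CfsgLib.CharPClimb.charP_inf_centralizer hchar hyp
      (Subgroup.zpowers_le.mpr (Subgroup.le_normalizer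
        (Subgroup.mem_centralizer_singleton_iff.mpr hzy.symm)))
  have hmemH : ∀ c : G, c ∈ H ↔ c * z = z * c ∧ c * y = y * c := by
    intro c
    rw [hH, Subgroup.mem_inf, Subgroup.mem_centralizer_singleton_iff]
    refine and_congr_right fun _ => ?_
    rw [Subgroup.mem_centralizer_iff]
    refine ⟨fun h => (h y (Subgroup.mem_zpowers y)).symm, fun h w hw => ?_⟩
    obtain ⟨i, rfl⟩ := Subgroup.mem_zpowers_iff.mp hw
    exact (Commute.zpow_left (show Commute y c from h.symm) i).eq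
  have hcop : ∀ r ∈ R, (orderOf r).Coprime 2 := fun r hr =>
    Nat.coprime_two_right.mpr (hodd.of_dvd_nat (Subgroup.orderOf_dvd_natCard R hr))
  have huH : u ∈ H := (hmemH u).mpr ⟨huz, huy⟩
  refine CfsgLib.CharPClimb.eq_one_of_centralizes hH' huH (hcop u hu) fun q hq => ?_
  have hqH : q ∈ H := CfsgLib.CharPClimb.pCoreIn_le H hq
  have h1 : u * q * u⁻¹ * q⁻¹ ∈ R := by
    have := mul_mem hu (hn q ((hmemH q).mp hqH).1 ((hmemH q).mp hqH).2 u⁻¹ (inv_mem hu))
    simpa [mul_assoc] using this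
  have h2 : u * q * u⁻¹ * q⁻¹ ∈ CfsgLib.CharPClimb.pCoreIn 2 H :=
    mul_mem ((Subgroup.mem_normalizer_iff.mp
      (CfsgLib.CharPClimb.normalizer_le_normalizer_pCoreIn (p := 2) H (Subgroup.le_normalizer huH)) q).mp hq)
      (inv_mem hq)
  have h3 : u * q * u⁻¹ * q⁻¹ = 1 :=
    CfsgLib.LocalP.eq_one_of_mem_of_coprime (CfsgLib.CharPClimb.isPGroup_pCoreIn H) h2 (hcop _ h1)
  rwa [mul_inv_eq_one, mul_inv_eq_iff_eq_mul] at h3

/-- The core of an involution centralizer, in the ambient group. -/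
abbrev core (y : G) : Subgroup G :=
  CfsgLib.Balance.oddCoreIn (Subgroup.centralizer ({y} : Set G))

omit [Finite G] in
theorem comm_of_mem_core {y u : G} (h : u ∈ core y) : u * y = y * u :=
  Subgroup.mem_centralizer_singleton_iff.mp (CfsgLib.Balance.oddCoreIn_le _ h)

omit [Finite G] in
theorem conj_mem_core {y c u : G} (hc : c * y = y * c) (hu : u ∈ core y) : c * u * c⁻¹ ∈ core y := by
  obtain ⟨v, hv, rfl⟩ := hu
  exact ⟨⟨c, Subgroup.mem_centralizer_singleton_iff.mpr hc⟩ * v *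
    ⟨c, Subgroup.mem_centralizer_singleton_iff.mpr hc⟩⁻¹,
    (Cfsg.pPrimeCore_normal 2 _).conj_mem v hv _, rfl⟩

theorem odd_card_core (y : G) : Odd (Nat.card ↥(core y)) := by
  have h : Nat.card ↥(core y) = Nat.card ↥(Cfsg.oddCore ↥(Subgroup.centralizer ({y} : Set G))) :=
    (Nat.card_congr ((Cfsg.oddCore ↥(Subgroup.centralizer ({y} : Set G))).equivMapOfInjective _
      (Subgroup.subtype_injective _)).toEquiv).symm
  rw [h, Nat.odd_iff, ← Nat.two_dvd_ne_zero]
  exact CfsgLib.Balance.pPrimeCore_not_dvd 2 _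

theorem odd_orderOf_mem_core {y u : G} (h : u ∈ core y) : Odd (orderOf u) :=
  (odd_card_core y).of_dvd_nat (Subgroup.orderOf_dvd_natCard _ h)

theorem core_inverted {z y : G} (hz : z * z = 1) (hy : y * y = 1) (hzy : z * y = y * z)
    (hchar : CfsgLib.CharPClimb.CharP 2 (Subgroup.centralizer ({z} : Set G))) :
    ∀ w ∈ core y, z * w * z = w⁻¹ := by
  have hzi : z⁻¹ = z := inv_eq_of_mul_eq_one_right hz
  refine inverts_of_fixed_point_free hz ?_ fun u hu huz => eq_one_of_mem hy hzy hchar (odd_card_core y)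
    (fun c _ hcy r hr => conj_mem_core hcy hr) hu huz.symm (comm_of_mem_core hu)
  rw [Subgroup.mem_normalizer_iff]
  intro u
  refine ⟨conj_mem_core hzy, fun h => ?_⟩
  have h' := conj_mem_core hzy h
  have e : z * (z * u * z⁻¹) * z⁻¹ = u := by
    rw [hzi]
    calc z * (z * u * z) * z = (z * z) * u * (z * z) := by group
      _ = u := by rw [hz]; group
  rwa [e] at h'

/-- Balance: `O(C(x)) ∩ C(y) ≤ O(C(y))`. -/
theorem balance {x y z : G} (hx : x * x = 1) (hy : y * y = 1) (hz : z * z = 1)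
    (hxy : x * y = y * x) (hzx : z * x = x * z) (hzy : z * y = y * z)
    (hchar : CfsgLib.CharPClimb.CharP 2 (Subgroup.centralizer ({z} : Set G)))
    (hlayer : Cfsg.layer ↥(Subgroup.centralizer ({y} : Set G)) = ⊥)
    {d : G} (hd : d ∈ core x) (hdy : d * y = y * d) : d ∈ core y := by
  classical
  set C := Subgroup.centralizer ({y} : Set G) with hC
  have hzi : z⁻¹ = z := inv_eq_of_mul_eq_one_right hz
  have hdC : d ∈ C := Subgroup.mem_centralizer_singleton_iff.mpr hdy
  have hdodd := odd_orderOf_mem_core hd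
  have hdz := core_inverted hz hx hzx hchar d hd
  have hnorm : ∀ (q : ℕ) (c : G), c * y = y * c → ∀ u ∈ CfsgLib.CharPClimb.pCoreIn q C,
      c * u * c⁻¹ ∈ CfsgLib.CharPClimb.pCoreIn q C := by
    rintro q c hc _ ⟨v, hv, rfl⟩
    exact ⟨⟨c, Subgroup.mem_centralizer_singleton_iff.mpr hc⟩ * v *
      ⟨c, Subgroup.mem_centralizer_singleton_iff.mpr hc⟩⁻¹,
      (Cfsg.pCore_normal q _).conj_mem v hv _, rfl⟩
  -- `d` centralizes every `O_q(C(y))`
  have hcent : ∀ q : ℕ, q.Prime → ∀ u ∈ CfsgLib.CharPClimb.pCoreIn q C, d * u = u * d := by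
    intro q hq
    haveI := Fact.mk hq
    have hQp : IsPGroup q ↥(CfsgLib.CharPClimb.pCoreIn q C) := CfsgLib.CharPClimb.isPGroup_pCoreIn C
    by_cases hq2 : q = 2
    · subst hq2
      have hxp : IsPGroup 2 (Subgroup.zpowers x) := by
        rintro ⟨w, hw⟩
        obtain ⟨i, rfl⟩ := Subgroup.mem_zpowers_iff.mp hw
        exact ⟨1, Subtype.ext (by
          show (x ^ i) ^ (2 ^ 1) = 1
          rw [pow_one, sq, ← zpow_add, ← two_mul, zpow_mul, zpow_two, hx, one_zpow])⟩
      have hN : ∀ c : G, c * y = y * c →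
          c ∈ Subgroup.normalizer (CfsgLib.CharPClimb.pCoreIn 2 C : Set G) := by
        intro c hc
        rw [Subgroup.mem_normalizer_iff]
        refine fun u => ⟨hnorm 2 c hc u, fun h => ?_⟩
        have hc' : c⁻¹ * y = y * c⁻¹ := (Commute.inv_left hc).eq
        simpa [mul_assoc] using hnorm 2 c⁻¹ hc' _ h
      have hdx : Commute d x := comm_of_mem_core hd
      refine CfsgLib.LocalP.commute_of_centralizes_fixed hQp hxp
        (Subgroup.zpowers_le.mpr (hN x hxy)) (Nat.coprime_two_right.mpr hdodd) (hN d hdy)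
        (fun w hw => by
          obtain ⟨i, rfl⟩ := Subgroup.mem_zpowers_iff.mp hw
          exact (hdx.zpow_right i).eq) fun u hu hfix => ?_
      have hux : x * u = u * x := hfix x (Subgroup.mem_zpowers x)
      have h1 : d * u * d⁻¹ * u⁻¹ ∈ core x := by
        have := mul_mem hd (conj_mem_core hux.symm (inv_mem hd))
        simpa [mul_assoc] using this
      have h2 : d * u * d⁻¹ * u⁻¹ ∈ CfsgLib.CharPClimb.pCoreIn 2 C :=
        mul_mem (hnorm 2 d hdy u hu) (inv_mem hu)
      have h3 := CfsgLib.LocalP.eq_one_of_mem_of_coprime hQp h2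
        (Nat.coprime_two_right.mpr (odd_orderOf_mem_core h1))
      rwa [mul_inv_eq_one, mul_inv_eq_iff_eq_mul] at h3
    · have hodd : Odd (Nat.card ↥(CfsgLib.CharPClimb.pCoreIn q C)) := by
        obtain ⟨k, hk⟩ := IsPGroup.iff_card.mp hQp
        rw [hk]
        exact (hq.odd_of_ne_two hq2).pow
      have hinv : ∀ u ∈ CfsgLib.CharPClimb.pCoreIn q C, z * u * z = u⁻¹ := by
        refine inverts_of_fixed_point_free hz ?_ fun u hu huz => eq_one_of_mem hy hzy hchar hodd
          (fun c _ hcy r hr => hnorm q c hcy r hr) hu huz.symm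
          (Subgroup.mem_centralizer_singleton_iff.mp (CfsgLib.CharPClimb.pCoreIn_le C hu))
        rw [Subgroup.mem_normalizer_iff]
        intro u
        refine ⟨hnorm q z hzy u, fun h => ?_⟩
        have h' := hnorm q z hzy _ h
        have e : z * (z * u * z⁻¹) * z⁻¹ = u := by
          rw [hzi]
          calc z * (z * u * z) * z = (z * z) * u * (z * z) := by group
            _ = u := by rw [hz]; group
        rwa [e] at h'
      intro u hu
      refine (commute_of_sq hdodd ?_).eq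
      have h1 : z * (d * u * d⁻¹) * z = (d * u * d⁻¹)⁻¹ := hinv _ (hnorm q d hdy u hu)
      have h2 : z * (d * u * d⁻¹) * z = d⁻¹ * u⁻¹ * d := by
        calc z * (d * u * d⁻¹) * z = z * d * (z * z) * u * (z * z) * d⁻¹ * z := by rw [hz]; group
          _ = (z * d * z) * (z * u * z) * (z⁻¹⁻¹ * d⁻¹ * z) := by group
          _ = d⁻¹ * u⁻¹ * d := by
            have h4 : z * d⁻¹ * z = d := by
              calc z * d⁻¹ * z = (z⁻¹ * d * z⁻¹)⁻¹ := by group
                _ = d := by rw [hzi, hdz, inv_inv]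
            rw [inv_inv, hdz, hinv u hu, h4]
      rw [h2] at h1
      have h5 : d⁻¹ * u * d = d * u * d⁻¹ := by
        have := congrArg (·⁻¹) h1
        simpa [mul_assoc] using this
      show d * d * u = u * (d * d)
      calc d * d * u = d * (d * u * d⁻¹) * d := by group
        _ = d * (d⁻¹ * u * d) * d := by rw [← h5]
        _ = u * (d * d) := by group
  -- hence `d` lies in the Fitting subgroup
  have hdF : (⟨d, hdC⟩ : ↥C) ∈ Cfsg.fittingSubgroup ↥C := by
    apply CfsgLib.Cores.centralizer_fitting_le_iff.mpr hlayer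
    have hle : Cfsg.fittingSubgroup ↥C ≤ Subgroup.centralizer {(⟨d, hdC⟩ : ↥C)} := by
      rw [CfsgLib.Constrained.fitting_eq_iSup_pCore]
      refine iSup₂_le fun q hq u hu => Subgroup.mem_centralizer_singleton_iff.mpr (Subtype.ext ?_)
      exact (hcent q hq u ⟨u, hu, rfl⟩).symm
    exact Subgroup.mem_centralizer_iff.mpr fun u hu =>
      Subgroup.mem_centralizer_singleton_iff.mp (hle hu)
  have hFle : Cfsg.fittingSubgroup ↥C ≤ Cfsg.pCore 2 ↥C ⊔ Cfsg.oddCore ↥C := by
    rw [CfsgLib.Constrained.fitting_eq_iSup_pCore]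
    refine iSup₂_le fun q hq => ?_
    haveI := Fact.mk hq
    by_cases hq2 : q = 2
    · subst hq2; exact le_sup_left
    · refine le_trans ?_ le_sup_right
      refine CfsgLib.Constrained.le_pPrimeCore_of_not_dvd (Cfsg.pCore_normal q _) ?_
      obtain ⟨k, hk⟩ := IsPGroup.iff_card.mp (CfsgLib.LocalP.isPGroup_pCore (G := ↥C) (p := q))
      rw [hk]
      exact fun h => hq2 ((Nat.prime_dvd_prime_iff_eq Nat.prime_two hq).mp
        (Nat.prime_two.dvd_of_dvd_pow h)).symm
  obtain ⟨a, ha, b, hb, hab⟩ := Subgroup.mem_sup_of_normal_right.mp (hFle hdF)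
  have hone : (QuotientGroup.mk (⟨d, hdC⟩ : ↥C) : ↥C ⧸ Cfsg.oddCore ↥C) = 1 := by
    apply CfsgLib.LocalP.eq_one_of_mem_of_coprime
      ((CfsgLib.LocalP.isPGroup_pCore (G := ↥C) (p := 2)).map (QuotientGroup.mk' (Cfsg.oddCore ↥C)))
    · refine ⟨a, ha, ?_⟩
      rw [← hab, QuotientGroup.mk_mul, (QuotientGroup.eq_one_iff b).mpr hb, mul_one]
      rfl
    · refine Nat.coprime_two_right.mpr (hdodd.of_dvd_nat ?_)
      exact (orderOf_map_dvd (QuotientGroup.mk' (Cfsg.oddCore ↥C)) (⟨d, hdC⟩ : ↥C)).trans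
        (by rw [Subgroup.orderOf_mk])
  exact ⟨⟨d, hdC⟩, (QuotientGroup.eq_one_iff _).mp hone, rfl⟩

/-- Decomposition of an inverted abelian odd group into eigen elements. -/
theorem le_closure_eigen {A : Subgroup G} (hA : ∀ a ∈ A, ∀ b ∈ A, Commute a b)
    (hodd : Odd (Nat.card ↥A)) (l : List G)
    (hcomm : ∀ g ∈ l, ∀ h ∈ l, g * h = h * g) (hsq : ∀ g ∈ l, g * g = 1)
    (hn : ∀ g ∈ l, ∀ a ∈ A, g * a * g⁻¹ ∈ A) :
    A ≤ Subgroup.closure {u | u ∈ A ∧ ∀ g ∈ l, g * u * g⁻¹ = u ∨ g * u * g⁻¹ = u⁻¹} := by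
  induction l with
  | nil => exact fun u hu => Subgroup.subset_closure ⟨hu, by simp⟩
  | cons g l ih =>
    refine (ih (fun a ha b hb => hcomm a (List.mem_cons_of_mem g ha) b (List.mem_cons_of_mem g hb))
      (fun a ha => hsq a (List.mem_cons_of_mem g ha)) (fun a ha => hn a (List.mem_cons_of_mem g ha))).trans ?_
    rw [Subgroup.closure_le]
    rintro u ⟨huA, hu⟩
    have hg : g ∈ g :: l := List.mem_cons_self ..
    set v := g * u * g⁻¹ with hv
    have hvA : v ∈ A := hn g hg u huA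
    have hgv : g * v * g⁻¹ = u := by
      calc g * v * g⁻¹ = (g * g) * u * (g * g)⁻¹ := by rw [hv]; group
        _ = u := by rw [hsq g hg]; group
    have huv : Commute u v := hA u huA v hvA
    have hlv : ∀ h ∈ l, (h * u * h⁻¹ = u ∧ h * v * h⁻¹ = v) ∨
        (h * u * h⁻¹ = u⁻¹ ∧ h * v * h⁻¹ = v⁻¹) := by
      intro h hh
      have hgh : g * h = h * g := hcomm g hg h (List.mem_cons_of_mem g hh)
      have e : h * v * h⁻¹ = g * (h * u * h⁻¹) * g⁻¹ := by
        rw [hv]
        calc h * (g * u * g⁻¹) * h⁻¹ = (h * g) * u * (h * g)⁻¹ := by group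
          _ = (g * h) * u * (g * h)⁻¹ := by rw [hgh]
          _ = g * (h * u * h⁻¹) * g⁻¹ := by group
      rcases hu h hh with h' | h'
      · exact Or.inl ⟨h', by rw [e, h', hv]⟩
      · exact Or.inr ⟨h', by rw [e, h', hv]; group⟩
    have h1 : u * v ∈ Subgroup.closure
        {u | u ∈ A ∧ ∀ g' ∈ g :: l, g' * u * g'⁻¹ = u ∨ g' * u * g'⁻¹ = u⁻¹} := by
      refine Subgroup.subset_closure ⟨mul_mem huA hvA, fun h hh => ?_⟩
      rcases List.mem_cons.mp hh with rfl | hh
      · left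
        rw [conj_mul.symm, ← hv, hgv, huv.eq]
      · rcases hlv h hh with ⟨a, b⟩ | ⟨a, b⟩
        · exact Or.inl (by rw [conj_mul.symm, a, b])
        · exact Or.inr (by rw [conj_mul.symm, a, b]; exact huv.inv_inv.eq.trans (mul_inv_rev u v).symm)
    have h2 : u * v⁻¹ ∈ Subgroup.closure
        {u | u ∈ A ∧ ∀ g' ∈ g :: l, g' * u * g'⁻¹ = u ∨ g' * u * g'⁻¹ = u⁻¹} := by
      refine Subgroup.subset_closure ⟨mul_mem huA (inv_mem hvA), fun h hh => ?_⟩
      rcases List.mem_cons.mp hh with rfl | hh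
      · right
        rw [conj_mul.symm, conj_inv.symm, ← hv, hgv, mul_inv_rev, inv_inv]
      · rcases hlv h hh with ⟨a, b⟩ | ⟨a, b⟩
        · exact Or.inl (by rw [conj_mul.symm, conj_inv.symm, a, b])
        · exact Or.inr (by rw [conj_mul.symm, conj_inv.symm, a, b]; exact huv.inv_inv.inv_right.eq.trans (mul_inv_rev u v⁻¹).symm)
    have h3 : u * u = (u * v) * (u * v⁻¹) := by
      calc u * u = u * (v * u) * v⁻¹ * (v * v⁻¹) := by rw [← huv.eq]; group
        _ = (u * v) * (u * v⁻¹) := by group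
    have hsq' := mem_zpowers_sq (hodd.of_dvd_nat (Subgroup.orderOf_dvd_natCard A huA))
    exact (Subgroup.zpowers_le.mpr (by rw [h3]; exact mul_mem h1 h2)) hsq'

/-- Among at least eight commuting involutions some nontrivial one fixes two given eigen elements. -/
theorem exists_common_fixed {Y : Subgroup G} (h8 : 8 ≤ Nat.card ↥Y) {u v : G}
    (hu : ∀ g ∈ Y, g * u * g⁻¹ = u ∨ g * u * g⁻¹ = u⁻¹)
    (hv : ∀ g ∈ Y, g * v * g⁻¹ = v ∨ g * v * g⁻¹ = v⁻¹) :
    ∃ e ∈ Y, e ≠ 1 ∧ e * u * e⁻¹ = u ∧ e * v * e⁻¹ = v := by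
  classical
  haveI := Fintype.ofFinite ↥Y
  set φ : ↥Y → Bool × Bool := fun g =>
    (decide ((g : G) * u * (g : G)⁻¹ = u), decide ((g : G) * v * (g : G)⁻¹ = v)) with hφ
  have hcard : Fintype.card (Bool × Bool) < Fintype.card ↥Y := by
    rw [← Nat.card_eq_fintype_card (α := ↥Y)]
    simp only [Fintype.card_prod, Fintype.card_bool]
    omega
  obtain ⟨a, b, hne, hab⟩ := Fintype.exists_ne_map_eq_of_card_lt φ hcard
  simp only [hφ, Prod.mk.injEq, decide_eq_decide] at hab
  refine ⟨(a : G)⁻¹ * b, mul_mem (inv_mem a.2) b.2,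
    fun h => hne (Subtype.ext (inv_mul_eq_one.mp h)), ?_, ?_⟩
  all_goals
    simp only [mul_inv_rev, inv_inv]
  · have h1 : (a : G) * u * (a : G)⁻¹ = (b : G) * u * (b : G)⁻¹ := by
      rcases hu a a.2 with h | h
      · rw [h, hab.1.mp h]
      · by_cases h' : (a : G) * u * (a : G)⁻¹ = u
        · rw [h', hab.1.mp h']
        · rw [h, (hu b b.2).resolve_left fun h'' => h' (hab.1.mpr h'')]
    calc (a : G)⁻¹ * b * u * ((b : G)⁻¹ * a) = (a : G)⁻¹ * ((b : G) * u * (b : G)⁻¹) * a := by group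
      _ = u := by rw [← h1]; group
  · have h1 : (a : G) * v * (a : G)⁻¹ = (b : G) * v * (b : G)⁻¹ := by
      rcases hv a a.2 with h | h
      · rw [h, hab.2.mp h]
      · by_cases h' : (a : G) * v * (a : G)⁻¹ = v
        · rw [h', hab.2.mp h']
        · rw [h, (hv b b.2).resolve_left fun h'' => h' (hab.2.mpr h'')]
    calc (a : G)⁻¹ * b * v * ((b : G)⁻¹ * a) = (a : G)⁻¹ * ((b : G) * v * (b : G)⁻¹) * a := by group
      _ = v := by rw [← h1]; group

end CfsgLib.CoreGen
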