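import Cfsg.Agent.LocalP.SylowChain
import Cfsg.Agent.LocalP.AxB

/-!
Families of normalizers attached to a normalizer functor, and chains inside subgroups.
-/

set_option autoImplicit false

namespace CfsgLib.SylowChain

variable {G : Type*} [Group G] [Finite G] {p : ℕ} [Fact p.Prime]

/-- The normalizers of the members of `f S` over the Sylow subgroups `S` of `G`. -/
def normFamily (p : ℕ) (f : Subgroup G → Set (Subgroup G)) : Set (Subgroup G) :=
  {X | ∃ S : Sylow p G, ∃ F ∈ f (S : Subgroup G), X = Subgroup.normalizer (F : Set G)}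

omit [Finite G] [Fact p.Prime] in
theorem normFamily_isNormalSet {f : Subgroup G → Set (Subgroup G)}
    (hf : Cfsg.IsNormalizerFunctor p f) : Cfsg.IsNormalSet (normFamily p f) := by
  rintro X ⟨S, F, hF, rfl⟩ g
  refine ⟨conjS g S, Cfsg.subgroupConjRight g F, ?_, conjR_normalizer g F⟩
  rw [coe_conjS, Cfsg.subgroupConjRight, (hf _ S.isPGroup').2 g⁻¹]
  exact ⟨F, hF, rfl⟩

/-- A subgroup of the order of a Sylow subgroup is one. -/
theorem exists_sylow_of_card {R : Subgroup G} (S : Sylow p G)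
    (h : Nat.card ↥R = Nat.card ↥(S : Subgroup G)) : ∃ T : Sylow p G, (T : Subgroup G) = R :=
  ⟨Sylow.ofCard R (h.trans S.card_eq_multiplicity), rfl⟩

omit [Fact p.Prime] in
theorem card_map_subtype {M : Subgroup G} (R : Subgroup ↥M) :
    Nat.card ↥(R.map M.subtype) = Nat.card ↥R :=
  (Nat.card_congr (R.equivMapOfInjective M.subtype M.subtype_injective).toEquiv).symm

theorem card_sylow_eq (P Q : Sylow p G) :
    Nat.card ↥(P : Subgroup G) = Nat.card ↥(Q : Subgroup G) :=
  P.card_eq_multiplicity.trans Q.card_eq_multiplicity.symm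

theorem functorFamily_top (f : Subgroup G → Set (Subgroup G)) :
    Cfsg.functorFamily p f (⊤ : Subgroup G) = normFamily p f := by
  ext X
  constructor
  · rintro ⟨P, F, hF, rfl⟩
    obtain ⟨S₀⟩ : Nonempty (Sylow p G) := inferInstance
    obtain ⟨T, hT⟩ := exists_sylow_of_card S₀
      (R := (P : Subgroup ↥(⊤ : Subgroup G)).map (⊤ : Subgroup G).subtype) (by
      rw [card_map_subtype, P.card_eq_multiplicity, Subgroup.card_top, S₀.card_eq_multiplicity])
    exact ⟨T, F, hT ▸ hF, top_inf_eq _⟩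
  · rintro ⟨S, F, hF, rfl⟩
    refine ⟨S.subtype le_top, F, ?_, (top_inf_eq _).symm⟩
    rwa [Sylow.coe_subtype, Subgroup.map_subgroupOf_eq_of_le le_top]

/-- If `P ∩ X` is Sylow in `X` and `X` contains a p-subgroup of the order of `P`, then `P ≤ X`. -/
theorem le_of_mem_sylowMembers {𝓕 : Set (Subgroup G)} {P X Q : Subgroup G}
    (hX : X ∈ Cfsg.sylowMembers p 𝓕 P) (hQX : Q ≤ X) (hQ : IsPGroup p ↥Q)
    (hcard : Nat.card ↥Q = Nat.card ↥P) : P ≤ X := by
  obtain ⟨-, -, h3⟩ := mem_sylowMembers_iff.mp hX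
  obtain ⟨k, hk⟩ := IsPGroup.iff_card.mp hQ
  have h1 : Nat.card ↥Q ∣ Nat.card ↥(P ⊓ X : Subgroup G) * P.relIndex X := by
    rw [← Subgroup.inf_relIndex_right P X, Subgroup.relIndex,
      ← Nat.card_congr (Subgroup.subgroupOfEquivOfLe (inf_le_right : P ⊓ X ≤ X)).toEquiv,
      Subgroup.card_mul_index]
    exact Subgroup.card_dvd_of_le hQX
  have h2 : Nat.card ↥Q ∣ Nat.card ↥(P ⊓ X : Subgroup G) := by
    refine Nat.Coprime.dvd_of_dvd_mul_right ?_ h1
    rw [hk]
    exact Nat.Coprime.pow_left k ((Fact.out : p.Prime).coprime_iff_not_dvd.mpr h3)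
  exact inf_eq_left.mp (Subgroup.eq_of_le_of_card_ge inf_le_left
    (hcard ▸ Nat.le_of_dvd Nat.card_pos h2))

/-- The content of one step of a chain inside `M` for the family induced by `f`. -/
theorem step_inside {f : Subgroup G → Set (Subgroup G)} (hf : Cfsg.IsNormalizerFunctor p f)
    {M : Subgroup G} {D : Subgroup ↥M} {P P' : Sylow p ↥M}
    (hs : Step ((fun X : Subgroup G => X.subgroupOf M) '' Cfsg.functorFamily p f M) D P P') :
    ∃ (Q : Sylow p ↥M) (F : Subgroup G) (x : G),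
      F ∈ f ((Q : Subgroup ↥M).map M.subtype) ∧
      (Q : Subgroup ↥M).map M.subtype ≤ Subgroup.normalizer (F : Set G) ∧
      (P : Subgroup ↥M).map M.subtype ≤ Subgroup.normalizer (F : Set G) ∧
      (P' : Subgroup ↥M).map M.subtype ≤ Subgroup.normalizer (F : Set G) ∧
      x ∈ Subgroup.normalizer (F : Set G) ∧
      Cfsg.subgroupConjRight x ((P' : Subgroup ↥M).map M.subtype) = (P : Subgroup ↥M).map M.subtype ∧
      D.map M.subtype ≤ (P' : Subgroup ↥M).map M.subtype := by
  obtain ⟨Y, x, h1, h2, h3, h4, h5⟩ := hs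
  obtain ⟨X, ⟨Q, F, hF, rfl⟩, rfl⟩ := h1.1
  have hQN : (Q : Subgroup ↥M).map M.subtype ≤ Subgroup.normalizer (F : Set G) :=
    Subgroup.le_normalizer.trans ((hf _ (Q.isPGroup'.map M.subtype)).1 F hF).2
  have hle : ∀ R : Sylow p ↥M,
      (M ⊓ Subgroup.normalizer (F : Set G)).subgroupOf M ∈ Cfsg.sylowMembers p
        ((fun X : Subgroup G => X.subgroupOf M) '' Cfsg.functorFamily p f M) (R : Subgroup ↥M) →
      (R : Subgroup ↥M).map M.subtype ≤ Subgroup.normalizer (F : Set G) := by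
    intro R hR
    have h := le_of_mem_sylowMembers hR (Q := (Q : Subgroup ↥M))
      (fun q hq => Subgroup.mem_subgroupOf.mpr ⟨q.2, hQN ⟨q, hq, rfl⟩⟩) Q.isPGroup' (card_sylow_eq Q R)
    rintro _ ⟨r, hr, rfl⟩
    exact (Subgroup.mem_subgroupOf.mp (h hr)).2
  refine ⟨Q, F, x, hF, hQN, hle P h1, hle P' h2, (Subgroup.mem_subgroupOf.mp h3).2, ?_,
    Subgroup.map_mono (h5.trans inf_le_left)⟩
  rw [← h4]
  show _ = ((P' : Subgroup ↥M).map (MulAut.conj x⁻¹).toMonoidHom).map M.subtype
  rw [Cfsg.subgroupConjRight, Subgroup.map_map, Subgroup.map_map]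
  congr 1

/-- Chains in a regular subgroup containing a Sylow subgroup of `G`. -/
theorem linked_of_regular_full {f : Subgroup G → Set (Subgroup G)}
    (hf : Cfsg.IsNormalizerFunctor p f) {M : Subgroup G} (hr : Cfsg.IsFunctorRegular p f M)
    {D : Subgroup G} (hD : D ≠ ⊥) {U V : Sylow p G} (hU : (U : Subgroup G) ≤ M)
    (hV : (V : Subgroup G) ≤ M) (hDU : D ≤ (U : Subgroup G)) (hDV : D ≤ (V : Subgroup G)) :
    Linked (normFamily p f) D U V := by
  set D' := D.subgroupOf M with hD'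
  have hD'map : D'.map M.subtype = D := Subgroup.map_subgroupOf_eq_of_le (hDU.trans hU)
  have hD'ne : D' ≠ ⊥ := fun h => hD (by rw [← hD'map, h, Subgroup.map_bot])
  suffices key : ∀ P : Sylow p ↥M,
      Linked ((fun X : Subgroup G => X.subgroupOf M) '' Cfsg.functorFamily p f M) D' (U.subtype hU) P →
      ∀ W : Sylow p G, (P : Subgroup ↥M).map M.subtype = (W : Subgroup G) →
        Linked (normFamily p f) D U W by
    refine key (V.subtype hV) (linked_of_controls hr hD'ne ?_ ?_) V ?_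
    · exact Subgroup.comap_mono hDU
    · exact Subgroup.comap_mono hDV
    · rw [Sylow.coe_subtype, Subgroup.map_subgroupOf_eq_of_le hV]
  intro P hP
  induction hP with
  | refl =>
    intro W hW
    rw [Sylow.coe_subtype, Subgroup.map_subgroupOf_eq_of_le hU] at hW
    rw [Sylow.ext hW]
    exact Relation.ReflTransGen.refl
  | @tail P P' _ hs ih =>
    intro W hW
    obtain ⟨Q, F, x, hF, -, hPN, hP'N, hx, hconj, hDP⟩ := step_inside hf hs
    have hcard : ∀ R : Sylow p ↥M, Nat.card ↥((R : Subgroup ↥M).map M.subtype) =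
        Nat.card ↥(U : Subgroup G) := fun R => by
      rw [card_map_subtype, card_sylow_eq R (U.subtype hU), Sylow.coe_subtype]
      exact Nat.card_congr (Subgroup.subgroupOfEquivOfLe hU).toEquiv
    obtain ⟨W₀, hW₀⟩ := exists_sylow_of_card U (hcard P)
    obtain ⟨S₀, hS₀⟩ := exists_sylow_of_card U (hcard Q)
    refine (ih W₀ hW₀.symm).tail ⟨Subgroup.normalizer (F : Set G), x, ?_, ?_, hx, ?_, ?_⟩
    · exact mem_sylowMembers_of_le (𝓕 := normFamily p f) ⟨S₀, F, hS₀ ▸ hF, rfl⟩ W₀ (hW₀ ▸ hPN)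
    · exact mem_sylowMembers_of_le (𝓕 := normFamily p f) ⟨S₀, F, hS₀ ▸ hF, rfl⟩ W (hW ▸ hP'N)
    · rw [← hW, hW₀, hconj]
    · rw [← hW, inf_of_le_left hP'N, ← hD'map]
      exact hDP

/-- Linked chains in `G` give regularity of `⊤`. -/
theorem regular_top {f : Subgroup G → Set (Subgroup G)}
    (h : ∀ S T : Sylow p G, (S : Subgroup G) ⊓ (T : Subgroup G) ≠ ⊥ →
      Linked (normFamily p f) ((S : Subgroup G) ⊓ (T : Subgroup G)) S T) :
    Cfsg.IsFunctorRegular p f (⊤ : Subgroup G) := by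
  rw [Cfsg.IsFunctorRegular, controls_iff]
  intro S' T' _ hD
  obtain ⟨S₀⟩ : Nonempty (Sylow p G) := inferInstance
  have hcard : ∀ R : Sylow p ↥(⊤ : Subgroup G),
      Nat.card ↥((R : Subgroup ↥(⊤ : Subgroup G)).map (⊤ : Subgroup G).subtype) =
        Nat.card ↥(S₀ : Subgroup G) := fun R => by
    rw [card_map_subtype, R.card_eq_multiplicity, Subgroup.card_top, S₀.card_eq_multiplicity]
  obtain ⟨S, hS⟩ := exists_sylow_of_card S₀ (hcard S')
  obtain ⟨T, hT⟩ := exists_sylow_of_card S₀ (hcard T')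
  have hS' : S.subtype le_top = S' := by
    apply Sylow.ext
    rw [Sylow.coe_subtype, hS, Subgroup.subgroupOf,
      Subgroup.comap_map_eq_self_of_injective (Subgroup.subtype_injective _)]
  have hT' : T.subtype le_top = T' := by
    apply Sylow.ext
    rw [Sylow.coe_subtype, hT, Subgroup.subgroupOf,
      Subgroup.comap_map_eq_self_of_injective (Subgroup.subtype_injective _)]
  have hne : (S : Subgroup G) ⊓ (T : Subgroup G) ≠ ⊥ := by
    rw [hS, hT, ← Subgroup.map_inf _ _ _ (Subgroup.subtype_injective _)]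
    exact (Subgroup.map_eq_bot_iff_of_injective _ (Subgroup.subtype_injective _)).not.mpr hD
  have hl := h S T hne
  rw [← hS', ← hT']
  have key : ∀ (E : Subgroup G) (U V : Sylow p G), Linked (normFamily p f) E U V →
      Linked ((fun X : Subgroup G => X.subgroupOf ⊤) '' Cfsg.functorFamily p f ⊤)
        (E.subgroupOf ⊤) (U.subtype le_top) (V.subtype le_top) := by
    intro E U V hUV
    induction hUV with
    | refl => exact Relation.ReflTransGen.refl
    | @tail V W _ hs ih =>
      obtain ⟨X, x, h1, h2, h3, h4, h5⟩ := hs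
      have hmem : ∀ R : Sylow p G, X ∈ Cfsg.sylowMembers p (normFamily p f) (R : Subgroup G) →
          X.subgroupOf ⊤ ∈ Cfsg.sylowMembers p
            ((fun X : Subgroup G => X.subgroupOf ⊤) '' Cfsg.functorFamily p f ⊤)
            ((R.subtype (le_top : (R : Subgroup G) ≤ ⊤) : Sylow p ↥(⊤ : Subgroup G)) :
              Subgroup ↥(⊤ : Subgroup G)) := by
        intro R hR
        obtain ⟨a1, a2, a3⟩ := mem_sylowMembers_iff.mp hR
        refine mem_sylowMembers_iff.mpr ⟨⟨X, by rw [functorFamily_top]; exact a1, rfl⟩, ?_, ?_⟩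
        · rw [Sylow.coe_subtype, Subgroup.subgroupOf, Subgroup.subgroupOf, ← Subgroup.comap_inf]
          exact a2.comap_of_injective _ (Subgroup.subtype_injective _)
        · rwa [Sylow.coe_subtype, Subgroup.relIndex_subgroupOf le_top]
      refine ih.tail ⟨X.subgroupOf ⊤, ⟨x, Subgroup.mem_top x⟩, hmem V h1, hmem W h2, h3, ?_, ?_⟩
      · rw [Sylow.coe_subtype, Sylow.coe_subtype]
        ext u
        rw [mem_conjR, Subgroup.mem_subgroupOf, Subgroup.mem_subgroupOf, ← h4, mem_conjR]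
        simp
      · exact Subgroup.comap_mono h5
  exact (key _ S T hl).mono (le_of_eq rfl)

end CfsgLib.SylowChain
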