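import Mathlib
import Cfsg.Agent.Eq.Def_Transfer
import Cfsg.Agent.Transfer.SmallElements
import Cfsg.Agent.Transfer.Control
import Cfsg.Agent.Transfer.Tate
import Cfsg.Agent.Alperin.Induction
import Cfsg.Agent.PGroup.Frattini

/-!
# Strongly closed subgroups of a fixed order and normal `p`-complements

For the smallest prime `p`, if every subgroup of order `p^b` of a Sylow subgroup `P` (and of order `4` when
`p^b = 2`) is strongly closed in `P`, then `G` has a normal `p`-complement. Two cases fix the small elements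
of every `p`-subgroup; in the remaining one all maximal subgroups of `P` are strongly closed, so the focal
subgroup lies in the Frattini subgroup and Tate's theorem applies.
-/

set_option autoImplicit false

open scoped Pointwise commutatorElement

namespace CfsgLib.LocalP

universe u

theorem modEq_one_of_pow_modEq_one {o i k : ℕ} (hk : k ≠ 0) (hc : k.Coprime o.totient)
    (h : i ^ k ≡ 1 [MOD o]) : i ≡ 1 [MOD o] := by
  have h1 : (i : ZMod o) ^ k = 1 := by
    have := (ZMod.natCast_eq_natCast_iff _ _ _).2 h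
    push_cast at this
    exact this
  obtain ⟨u, hu⟩ : IsUnit (i : ZMod o) := IsUnit.of_pow_eq_one h1 hk
  have h2 : u ^ k = 1 := Units.ext (by rw [Units.val_pow_eq_pow_val, hu, h1, Units.val_one])
  have h3 : u = 1 := by
    have := (pow_gcd_eq_one (a := u)).2 ⟨h2, ZMod.pow_totient u⟩
    rwa [hc, pow_one] at this
  refine (ZMod.natCast_eq_natCast_iff _ _ _).1 ?_
  rw [← hu, h3, Units.val_one, Nat.cast_one]

theorem coprime_totient_pow {k p s : ℕ} (hp : p.Prime) (hkp : k.Coprime p) (hk1 : k.Coprime (p - 1)) :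
    k.Coprime (p ^ s).totient := by
  rcases Nat.eq_zero_or_pos s with rfl | hs
  · simp
  · rw [Nat.totient_prime_pow hp hs]
    exact (hkp.pow_right _).mul_right hk1

/-- An element whose order has no prime divisor below `p` has order prime to `p - 1`. -/
theorem coprime_sub_one {G : Type*} [Group G] [Finite G] {p : ℕ} (hp : p.Prime)
    (hmin : ∀ q : ℕ, q.Prime → q ∣ Nat.card G → p ≤ q) (n : G) : (orderOf n).Coprime (p - 1) := by
  refine Nat.coprime_of_dvd fun r hr hrn hr1 => ?_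
  have h1 := hmin r hr (hrn.trans (orderOf_dvd_natCard n))
  have h0 := hp.two_le
  have h2 := Nat.le_of_dvd (by omega) hr1
  omega

section Fix

variable {G : Type*} [Group G] [Finite G]

theorem eq_of_conj_eq_pow {n a : G} {i : ℕ} (h : n * a * n⁻¹ = a ^ i)
    (hc : (orderOf n).Coprime (orderOf a).totient) : n * a * n⁻¹ = a := by
  have hj : ∀ j : ℕ, n ^ j * a * (n ^ j)⁻¹ = a ^ i ^ j := by
    intro j
    induction j with
    | zero => simp
    | succ j ih =>
      calc n ^ (j + 1) * a * (n ^ (j + 1))⁻¹ = n * (n ^ j * a * (n ^ j)⁻¹) * n⁻¹ := by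
            rw [pow_succ']; group
        _ = (n * a * n⁻¹) ^ i ^ j := by rw [ih, conj_pow]
        _ = _ := by rw [h, ← pow_mul, pow_succ']
  have h1 := hj (orderOf n)
  rw [pow_orderOf_eq_one, one_mul, inv_one, mul_one] at h1
  have h2 : i ^ orderOf n ≡ 1 [MOD orderOf a] := by
    rw [← pow_eq_pow_iff_modEq, pow_one]
    exact h1.symm
  have h3 := modEq_one_of_pow_modEq_one (orderOf_pos n).ne' hc h2
  rw [h, pow_eq_pow_iff_modEq.2 h3, pow_one]

theorem eq_of_conj_eq_mul {n a e : G} (h : n * a * n⁻¹ = a * e) (he : n * e * n⁻¹ = e)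
    (hc : (orderOf n).Coprime (orderOf e)) : n * a * n⁻¹ = a := by
  have hj : ∀ j : ℕ, n ^ j * a * (n ^ j)⁻¹ = a * e ^ j := by
    intro j
    induction j with
    | zero => simp
    | succ j ih =>
      calc n ^ (j + 1) * a * (n ^ (j + 1))⁻¹ = n * (n ^ j * a * (n ^ j)⁻¹) * n⁻¹ := by
            rw [pow_succ']; group
        _ = (n * a * n⁻¹) * (n * e * n⁻¹) ^ j := by rw [ih, conj_pow]; group
        _ = _ := by rw [h, he, pow_succ']; group
  have h1 := hj (orderOf n)
  rw [pow_orderOf_eq_one, one_mul, inv_one, mul_one, left_eq_mul] at h1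
  have h2 : e = 1 := by
    have := (pow_gcd_eq_one (a := e)).2 ⟨h1, pow_orderOf_eq_one e⟩
    rwa [hc, pow_one] at this
  rw [h, h2, mul_one]

/-- A `p'`-element centralizing the normal `p`-subgroup `N` and normalizing `N⟨a⟩` fixes `a`. -/
theorem conj_eq_self_of_mem_sup {p : ℕ} [hp : Fact p.Prime] {N : Subgroup G} [N.Normal] (hN : IsPGroup p N)
    {n a : G} (hfix : ∀ e ∈ N, n * e * n⁻¹ = e) {s : ℕ} (ha : orderOf a = p ^ s)
    (hmem : n * a * n⁻¹ ∈ N ⊔ Subgroup.zpowers a)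
    (hkp : (orderOf n).Coprime p) (hk1 : (orderOf n).Coprime (p - 1)) : n * a * n⁻¹ = a := by
  set π := QuotientGroup.mk' N with hπ
  have h1 : π (n * a * n⁻¹) ∈ Subgroup.zpowers (π a) := by
    have h2 := Subgroup.mem_map_of_mem π hmem
    rwa [Subgroup.map_sup, MonoidHom.map_zpowers, hπ, QuotientGroup.map_mk'_self, bot_sup_eq] at h2
  obtain ⟨i, hi⟩ := mem_powers_iff_mem_zpowers.2 h1
  rw [map_mul, map_mul, map_inv] at hi
  obtain ⟨t, -, ht⟩ := (Nat.dvd_prime_pow hp.out).1 (ha ▸ orderOf_map_dvd π a)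
  have hdn := orderOf_map_dvd π n
  have h3 := eq_of_conj_eq_pow hi.symm (by
    rw [ht]
    exact coprime_totient_pow hp.out (hkp.coprime_dvd_left hdn) (hk1.coprime_dvd_left hdn))
  rw [← map_inv, ← map_mul, ← map_mul, hπ, QuotientGroup.mk'_apply, QuotientGroup.mk'_apply,
    eq_comm, QuotientGroup.eq] at h3
  refine eq_of_conj_eq_mul (e := a⁻¹ * (n * a * n⁻¹)) (by group) (hfix _ h3) ?_
  obtain ⟨r, hr⟩ := IsPGroup.iff_orderOf.1 hN ⟨_, h3⟩
  rw [Subgroup.orderOf_mk] at hr
  rw [hr]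
  exact hkp.pow_right r

end Fix

section Focal

variable {G : Type u} [Group G] [Finite G] {p : ℕ} [hp : Fact p.Prime]

theorem div_mem_of_maximal (hmin : ∀ q : ℕ, q.Prime → q ∣ Nat.card G → p ≤ q) (P : Sylow p G)
    {M : Subgroup (P : Subgroup G)} (hM : IsCoatom M)
    (hsc : ∀ x : (P : Subgroup G), x ∈ M → ∀ (g : G) (hg : g * x * g⁻¹ ∈ (P : Subgroup G)),
      (⟨_, hg⟩ : (P : Subgroup G)) ∈ M)
    {U : Subgroup G} (hU : U ≤ (P : Subgroup G)) {n : G} (hn : n ∈ Subgroup.normalizer (U : Set G))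
    {x : G} (hx : x ∈ U) (hxP : x ∈ (P : Subgroup G)) (hy : n * x * n⁻¹ ∈ (P : Subgroup G)) :
    (⟨x, hxP⟩ : (P : Subgroup G))⁻¹ * ⟨_, hy⟩ ∈ M := by
  have hMn : M.Normal := CfsgLib.PGroup.normal_of_coatom P.2 hM
  have hidx : M.index = p := CfsgLib.PGroup.index_of_coatom P.2 hM
  by_cases hxM : (⟨x, hxP⟩ : (P : Subgroup G)) ∈ M
  · exact mul_mem (inv_mem hxM) (hsc _ hxM n hy)
  set π := QuotientGroup.mk' M with hπ
  have hcard : Nat.card ((P : Subgroup G) ⧸ M) = p := by rw [← Subgroup.index_eq_card, hidx]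
  have hconj : ∀ w ∈ U, n * w * n⁻¹ ∈ U := fun w hw => (Subgroup.mem_normalizer_iff.1 hn w).1 hw
  set X : (P : Subgroup G) := ⟨x, hxP⟩ with hX
  have hX1 : π X ≠ 1 := by
    rw [hπ, QuotientGroup.mk'_apply, Ne, QuotientGroup.eq_one_iff]; exact hxM
  obtain ⟨i, hi⟩ : ∃ i : ℕ, π X ^ i = π ⟨_, hy⟩ :=
    mem_powers_of_prime_card hcard hX1
  -- conjugation by `n` multiplies exponents by `i`
  have hstep : ∀ (w : G) (hw : w ∈ U) (a : ℕ), π ⟨w, hU hw⟩ = π X ^ a →
      π ⟨_, hU (hconj w hw)⟩ = π X ^ (i * a) := by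
    intro w hw a ha
    have hm : (x ^ a)⁻¹ * w ∈ U := mul_mem (inv_mem (pow_mem hx a)) hw
    have hmM : (⟨_, hU hm⟩ : (P : Subgroup G)) ∈ M := by
      rw [← QuotientGroup.eq_one_iff]
      change π ((X ^ a)⁻¹ * ⟨w, hU hw⟩) = 1
      rw [map_mul, map_inv, map_pow, ha, inv_mul_cancel]
    have h2 := hsc _ hmM n (hU (hconj _ hm))
    rw [← QuotientGroup.eq_one_iff] at h2
    have h3 : (⟨_, hU (hconj w hw)⟩ : (P : Subgroup G)) =
        ⟨_, hy⟩ ^ a * ⟨_, hU (hconj _ hm)⟩ := by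
      apply Subtype.ext
      push_cast
      rw [conj_pow]
      group
    rw [h3, map_mul, map_pow, show π ⟨_, hU (hconj _ hm)⟩ = 1 from h2, mul_one, ← hi, ← pow_mul]
  have hiter : ∀ j : ℕ, ∃ hw : n ^ j * x * (n ^ j)⁻¹ ∈ U, π ⟨_, hU hw⟩ = π X ^ i ^ j := by
    intro j
    induction j with
    | zero => exact ⟨by simpa using hx, by simp [hX]⟩
    | succ j ih =>
      obtain ⟨hw, hwe⟩ := ih
      have he : n * (n ^ j * x * (n ^ j)⁻¹) * n⁻¹ = n ^ (j + 1) * x * (n ^ (j + 1))⁻¹ := by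
        rw [pow_succ']; group
      refine ⟨he ▸ hconj _ hw, ?_⟩
      rw [pow_succ' i, ← hstep _ hw _ hwe]
      congr 1
      exact Subtype.ext he.symm
  obtain ⟨hw, hwe⟩ := hiter (orderOf n)
  have h4 : (⟨_, hU hw⟩ : (P : Subgroup G)) = X := Subtype.ext (by simp [pow_orderOf_eq_one, hX])
  rw [h4] at hwe
  have h5 : i ^ orderOf n ≡ 1 [MOD orderOf (π X)] := by
    rw [← pow_eq_pow_iff_modEq, pow_one]; exact hwe.symm
  have hoX : orderOf (π X) = p := by
    have h6 := orderOf_dvd_natCard (π X)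
    rw [hcard, Nat.dvd_prime hp.out, orderOf_eq_one_iff] at h6
    exact h6.resolve_left hX1
  have h7 := modEq_one_of_pow_modEq_one (orderOf_pos n).ne'
    (by rw [hoX, Nat.totient_prime hp.out]; exact coprime_sub_one hp.out hmin n) h5
  rw [← QuotientGroup.eq]
  change π X = π ⟨_, hy⟩
  rw [← hi, pow_eq_pow_iff_modEq.2 h7, pow_one]

/-- If every maximal subgroup of a Sylow `p`-subgroup is strongly closed and `p` is the smallest prime,
there is a normal `p`-complement. -/
theorem hasNormalPComplement_of_maximal_stronglyClosed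
    (hmin : ∀ q : ℕ, q.Prime → q ∣ Nat.card G → p ≤ q) (P : Sylow p G)
    (hsc : ∀ M : Subgroup (P : Subgroup G), IsCoatom M → ∀ x : (P : Subgroup G), x ∈ M →
      ∀ (g : G) (hg : g * x * g⁻¹ ∈ (P : Subgroup G)), (⟨_, hg⟩ : (P : Subgroup G)) ∈ M) :
    Cfsg.HasNormalPComplement p G := by
  let C : Subgroup G → G → Prop := fun H g => ∀ x ∈ H, ∀ M : Subgroup (P : Subgroup G), IsCoatom M →
    ∀ (hxP : x ∈ (P : Subgroup G)) (hy : g * x * g⁻¹ ∈ (P : Subgroup G)),
      (⟨x, hxP⟩ : (P : Subgroup G))⁻¹ * ⟨_, hy⟩ ∈ M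
  have key : ∀ (H : Subgroup G) (g : G), H ≤ (P : Subgroup G) →
      H.map (MulAut.conj g).toMonoidHom ≤ (P : Subgroup G) → C H g := by
    refine CfsgLib.Alperin.fusion_induction P C ?_ ?_ ?_ ?_
    · intro H K g hHK _ _ hK x hx
      exact hK x (hHK hx)
    · intro H g k _ hgH _ h1 h2 x hx M hM hxP hy
      have hmid : g * x * g⁻¹ ∈ (P : Subgroup G) :=
        hgH (CfsgLib.Alperin.conj_mem_conj_map g hx)
      have he : k * (g * x * g⁻¹) * k⁻¹ = k * g * x * (k * g)⁻¹ := by group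
      have h3 := h1 x hx M hM hxP hmid
      have h4 := h2 _ (CfsgLib.Alperin.conj_mem_conj_map g hx) M hM hmid (he ▸ hy)
      have h5 := mul_mem h3 h4
      rw [mul_assoc, mul_inv_cancel_left] at h5
      simpa only [he] using h5
    · intro n hn x hx M hM hxP hy
      exact div_mem_of_maximal hmin P hM (hsc M hM) le_rfl hn hx hxP hy
    · intro H hlt _
      obtain ⟨g, hgS, -, hFN⟩ := CfsgLib.Alperin.exists_conj_fullyNormalized P hlt.le
      exact ⟨_, hgS, ⟨g, rfl⟩, hFN, fun n hn x hx M hM hxP hy =>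
        div_mem_of_maximal hmin P hM (hsc M hM) hgS hn hx hxP hy⟩
  have hfoc : (P : Subgroup G).focalSubgroup ≤ (frattini (P : Subgroup G)).map (P : Subgroup G).subtype := by
    rw [Subgroup.focalSubgroup_def, Subgroup.closure_le]
    rintro _ ⟨hgP, x, hx, v, rfl⟩
    refine ⟨⟨_, hgP⟩, CfsgLib.PGroup.mem_frattini_iff.2 fun M hM => ?_, rfl⟩
    have hv : v * x⁻¹ * v⁻¹ ∈ (P : Subgroup G) := by
      have h2 := mul_mem (inv_mem hx) hgP
      rw [commutatorElement_def] at h2
      simpa [mul_assoc] using h2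
    have h3 := key (Subgroup.zpowers x⁻¹) v (Subgroup.zpowers_le.2 (inv_mem hx))
      (by rw [MonoidHom.map_zpowers, Subgroup.zpowers_le]; exact hv)
      x⁻¹ (Subgroup.mem_zpowers _) M hM (inv_mem hx) hv
    convert h3 using 1
    apply Subtype.ext
    simp [commutatorElement_def, mul_assoc]
  have hMP : Cfsg.pResidual p G ⊓ (P : Subgroup G) ≤
      (frattini (P : Subgroup G)).map (P : Subgroup G).subtype := by
    rw [inf_comm]
    exact (CfsgLib.Transfer.inf_pResidual_le_focalSubgroup P).trans hfoc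
  haveI : (Cfsg.pResidual p G).Normal := CfsgLib.CharP.pResidual_normal
  have hK := CfsgLib.Transfer.hasNormalPComplement_iff_coprime_pResidual.mp
    (CfsgLib.Transfer.tate_normal_pComplement P (Cfsg.pResidual p G) hMP)
  rw [CfsgLib.Transfer.hasNormalPComplement_iff_coprime_pResidual]
  refine Nat.Coprime.coprime_dvd_left ?_ hK
  refine (Subgroup.card_dvd_of_le (?_ : Cfsg.pResidual p G ≤
    (Cfsg.pResidual p (Cfsg.pResidual p G)).map (Cfsg.pResidual p G).subtype)).trans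
      (Subgroup.card_map_dvd _ _)
  refine (Subgroup.closure_le _).2 fun g hg => ?_
  exact ⟨⟨g, CfsgLib.CharP.mem_pResidual_of_coprime hg⟩,
    CfsgLib.CharP.mem_pResidual_of_coprime (by rw [Subgroup.orderOf_mk]; exact hg), rfl⟩

end Focal

section Main

variable {G : Type u} [Group G] [Finite G] {p : ℕ} [hp : Fact p.Prime]

/-- The case `b = 1`. -/
theorem hasNormalPComplement_of_stronglyClosed_prime (hmin : ∀ q : ℕ, q.Prime → q ∣ Nat.card G → p ≤ q)
    (P : Sylow p G)
    (hsc : ∀ E : Subgroup G, E ≤ (P : Subgroup G) → (Nat.card E = p ∨ (p = 2 ∧ Nat.card E = 4)) →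
      ∀ x ∈ E, ∀ g : G, g * x * g⁻¹ ∈ (P : Subgroup G) → g * x * g⁻¹ ∈ E) :
    Cfsg.HasNormalPComplement p G := by
  refine CfsgLib.Transfer.hasNormalPComplement_of_forall_le_sylow P fun Q hQ n hn hnc => ?_
  refine CfsgLib.Transfer.mem_centralizer_of_fixes_small (P.2.to_le hQ) hn hnc fun a ha hsmall => ?_
  suffices h : n * a * n⁻¹ = a by rwa [mul_inv_eq_iff_eq_mul] at h
  by_cases ha1 : a = 1
  · simp [ha1]
  obtain ⟨s, hs⟩ := IsPGroup.iff_orderOf.1 P.2 ⟨a, hQ ha⟩
  rw [Subgroup.orderOf_mk] at hs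
  have hcard : Nat.card (Subgroup.zpowers a) = p ∨ (p = 2 ∧ Nat.card (Subgroup.zpowers a) = 4) := by
    rw [Nat.card_zpowers]
    rcases hsmall with h | ⟨rfl, h⟩
    · exact Or.inl (orderOf_eq_prime h ha1)
    · have hd : orderOf a ∣ 2 ^ 2 := orderOf_dvd_of_pow_eq_one h
      obtain ⟨t, ht, hte⟩ := (Nat.dvd_prime_pow Nat.prime_two).1 hd
      interval_cases t
      · exact absurd (orderOf_eq_one_iff.1 hte) ha1
      · exact Or.inl hte
      · exact Or.inr ⟨rfl, hte⟩
  have h1 := hsc _ (Subgroup.zpowers_le.2 (hQ ha)) hcard a (Subgroup.mem_zpowers a) n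
    (hQ ((Subgroup.mem_normalizer_iff.1 hn a).1 ha))
  exact conj_eq_self_of_mem_sup (N := ⊥) IsPGroup.of_bot
    (by intro e he; rw [Subgroup.mem_bot] at he; simp [he]) hs
    (by rwa [bot_sup_eq]) hnc (coprime_sub_one hp.out hmin n)

/-- The case of a normal cyclic subgroup of order `p^b`, `b ≥ 2`. -/
theorem hasNormalPComplement_of_stronglyClosed_normal_cyclic
    (hmin : ∀ q : ℕ, q.Prime → q ∣ Nat.card G → p ≤ q) (P : Sylow p G) {b : ℕ} (hb : 2 ≤ b)
    (hsc : ∀ E : Subgroup G, E ≤ (P : Subgroup G) → Nat.card E = p ^ b →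
      ∀ x ∈ E, ∀ g : G, g * x * g⁻¹ ∈ (P : Subgroup G) → g * x * g⁻¹ ∈ E)
    (e₀ : G) (he₀P : e₀ ∈ (P : Subgroup G)) (he₀ : orderOf e₀ = p ^ b)
    (hE : ∀ g : G, g * e₀ * g⁻¹ ∈ Subgroup.zpowers e₀) :
    Cfsg.HasNormalPComplement p G := by
  refine CfsgLib.Transfer.hasNormalPComplement_of_forall_le_sylow P fun Q hQ n hn hnc => ?_
  refine CfsgLib.Transfer.mem_centralizer_of_fixes_small (P.2.to_le hQ) hn hnc fun a ha hsmall => ?_
  suffices h : n * a * n⁻¹ = a by rwa [mul_inv_eq_iff_eq_mul] at h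
  have hk1 := coprime_sub_one hp.out hmin n
  have hfix₀ : n * e₀ * n⁻¹ = e₀ := by
    obtain ⟨i, hi⟩ := mem_powers_iff_mem_zpowers.2 (hE n)
    exact eq_of_conj_eq_pow hi.symm (by rw [he₀]; exact coprime_totient_pow hp.out hnc hk1)
  obtain ⟨c, hc⟩ := IsPGroup.iff_orderOf.1 P.2 ⟨a, hQ ha⟩
  rw [Subgroup.orderOf_mk] at hc
  have hcb : c ≤ b := by
    have : c ≤ 2 := by
      rcases hsmall with h | ⟨rfl, h⟩
      · have hd := orderOf_dvd_of_pow_eq_one h
        rw [hc] at hd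
        have := (Nat.pow_dvd_pow_iff_le_right hp.out.one_lt).1 (show p ^ c ∣ p ^ 1 by rwa [pow_one])
        omega
      · have hd := orderOf_dvd_of_pow_eq_one h
        rw [hc] at hd
        exact (Nat.pow_dvd_pow_iff_le_right (by norm_num)).1 (show 2 ^ c ∣ 2 ^ 2 from hd)
    omega
  obtain ⟨f, hfc, hf⟩ : ∃ f ≤ c, Nat.card (Subgroup.zpowers e₀ ⊓ Subgroup.zpowers a : Subgroup G) = p ^ f := by
    have hd : Nat.card (Subgroup.zpowers e₀ ⊓ Subgroup.zpowers a : Subgroup G) ∣ p ^ c := by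
      rw [← hc, ← Nat.card_zpowers]; exact Subgroup.card_dvd_of_le inf_le_right
    exact (Nat.dvd_prime_pow hp.out).1 hd
  set e := e₀ ^ p ^ (c - f) with he
  have hoe : orderOf e = p ^ (b - (c - f)) := by
    rw [he, orderOf_pow_of_dvd (pow_pos hp.out.pos _).ne' (he₀ ▸ pow_dvd_pow p (by omega)), he₀,
      Nat.pow_div (by omega) hp.out.pos]
  haveI hNn : (Subgroup.zpowers e).Normal := by
    constructor
    intro y hy g
    obtain ⟨k, rfl⟩ := Subgroup.mem_zpowers_iff.1 hy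
    obtain ⟨i, hi⟩ := Subgroup.mem_zpowers_iff.1 (hE g)
    refine ⟨i * k, ?_⟩
    rw [conj_zpow.symm, he, conj_pow.symm, ← hi]
    simp only [← zpow_natCast, ← zpow_mul]
    congr 1
    ring
  have hNP : IsPGroup p (Subgroup.zpowers e) :=
    IsPGroup.of_card (n := b - (c - f)) (by rw [Nat.card_zpowers, hoe])
  -- the intersection lies in `⟨e⟩`
  have hinf : Subgroup.zpowers e₀ ⊓ Subgroup.zpowers a ≤ Subgroup.zpowers e := by
    intro y hy
    obtain ⟨j, rfl⟩ := Subgroup.mem_zpowers_iff.1 hy.1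
    have hyf : (e₀ ^ j) ^ p ^ f = 1 := by
      rw [← orderOf_dvd_iff_pow_eq_one, ← hf]
      rw [← Subgroup.orderOf_mk _ hy]
      exact orderOf_dvd_natCard _
    rw [← zpow_natCast, ← zpow_mul, ← orderOf_dvd_iff_zpow_eq_one, he₀] at hyf
    obtain ⟨m, hm⟩ : ((p : ℤ) ^ (c - f)) ∣ j := by
      have h1 : ((p : ℤ) ^ (c - f)) * (p : ℤ) ^ f ∣ j * (p : ℤ) ^ f := by
        rw [← pow_add]
        push_cast at hyf
        exact (pow_dvd_pow _ (by omega)).trans hyf
      exact (mul_dvd_mul_iff_right (pow_ne_zero _ (by exact_mod_cast hp.out.ne_zero))).1 h1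
    refine ⟨m, ?_⟩
    change e ^ m = _
    rw [he, ← zpow_natCast, ← zpow_mul, hm]
    push_cast
    rfl
  set U := Subgroup.zpowers e ⊔ Subgroup.zpowers a with hU
  have he₀e : Subgroup.zpowers e ≤ Subgroup.zpowers e₀ :=
    Subgroup.zpowers_le.2 (pow_mem (Subgroup.mem_zpowers e₀) _)
  have hUcard : Nat.card U = p ^ b := by
    have hi : Subgroup.zpowers e ⊓ Subgroup.zpowers a = Subgroup.zpowers e₀ ⊓ Subgroup.zpowers a :=
      le_antisymm (inf_le_inf_right _ he₀e) (le_inf hinf inf_le_right)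
    have h1 := Subgroup.relIndex_mul_relIndex ⊥ (Subgroup.zpowers e) U bot_le le_sup_left
    have h2 := Subgroup.relIndex_mul_relIndex ⊥ (Subgroup.zpowers e ⊓ Subgroup.zpowers a)
      (Subgroup.zpowers a) bot_le inf_le_right
    rw [hU, Subgroup.relIndex_bot_left, Subgroup.relIndex_bot_left, Subgroup.relIndex_sup_left] at h1
    rw [Subgroup.relIndex_bot_left, Subgroup.relIndex_bot_left, Subgroup.inf_relIndex_right, hi, hf,
      Nat.card_zpowers, hc] at h2
    rw [Nat.card_zpowers, hoe] at h1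
    rw [hU, ← h1]
    refine Nat.eq_of_mul_eq_mul_left (pow_pos hp.out.pos f) ?_
    rw [mul_left_comm, h2, ← pow_add, ← pow_add]
    congr 1
    omega
  have hUP : U ≤ (P : Subgroup G) :=
    sup_le (Subgroup.zpowers_le.2 (pow_mem he₀P _)) (Subgroup.zpowers_le.2 (hQ ha))
  have h1 := hsc U hUP hUcard a (Subgroup.mem_sup_right (Subgroup.mem_zpowers a)) n
    (hQ ((Subgroup.mem_normalizer_iff.1 hn a).1 ha))
  refine conj_eq_self_of_mem_sup hNP ?_ hc h1 hnc hk1
  intro y hy
  obtain ⟨k, rfl⟩ := Subgroup.mem_zpowers_iff.1 hy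
  rw [← conj_zpow, he, ← conj_pow, hfix₀]

/-- The smallest prime, with every subgroup of order `p^b` (and of order `4` if `p^b = 2`) strongly closed in `P`. -/
theorem hasNormalPComplement_of_stronglyClosed_order
    (hmin : ∀ q : ℕ, q.Prime → q ∣ Nat.card G → p ≤ q) (P : Sylow p G) {b : ℕ} (hb : 1 ≤ b)
    (hbP : p ^ b < Nat.card (P : Subgroup G))
    (hsc : ∀ E : Subgroup G, E ≤ (P : Subgroup G) →
      (Nat.card E = p ^ b ∨ (p ^ b = 2 ∧ Nat.card E = 4)) →
      ∀ x ∈ E, ∀ g : G, g * x * g⁻¹ ∈ (P : Subgroup G) → g * x * g⁻¹ ∈ E) :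
    Cfsg.HasNormalPComplement p G := by
  suffices key : ∀ (m : ℕ) (G : Type u) [Group G] [Finite G], Nat.card G = m →
      (∀ q : ℕ, q.Prime → q ∣ Nat.card G → p ≤ q) → ∀ P : Sylow p G,
      p ^ b < Nat.card (P : Subgroup G) →
      (∀ E : Subgroup G, E ≤ (P : Subgroup G) →
        (Nat.card E = p ^ b ∨ (p ^ b = 2 ∧ Nat.card E = 4)) →
        ∀ x ∈ E, ∀ g : G, g * x * g⁻¹ ∈ (P : Subgroup G) → g * x * g⁻¹ ∈ E) →
      Cfsg.HasNormalPComplement p G from key _ G rfl hmin P hbP hsc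
  intro m
  induction m using Nat.strong_induction_on with
  | h m ih =>
  intro G _ _ hm hmin P hbP hsc
  rcases Nat.lt_or_ge b 2 with hb2 | hb2
  · obtain rfl : b = 1 := by omega
    exact hasNormalPComplement_of_stronglyClosed_prime hmin P
      fun E hE hc => hsc E hE (by simpa using hc)
  by_cases hcyc : ∃ e₀ ∈ (P : Subgroup G), orderOf e₀ = p ^ b ∧ ∀ g : G, g * e₀ * g⁻¹ ∈ Subgroup.zpowers e₀
  · obtain ⟨e₀, he₀P, he₀, hE⟩ := hcyc
    exact hasNormalPComplement_of_stronglyClosed_normal_cyclic hmin P hb2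
      (fun E hE hc => hsc E hE (Or.inl hc)) e₀ he₀P he₀ hE
  refine hasNormalPComplement_of_maximal_stronglyClosed hmin P fun M hM x hxM g hg => ?_
  have hidx := CfsgLib.PGroup.index_of_coatom P.2 hM
  obtain ⟨a, ha⟩ := IsPGroup.iff_orderOf.1 P.2 x
  rcases le_or_gt a b with hab | hab
  · -- `x` lies in a subgroup of order `p^b` inside `M`
    have hdvd : p ^ b ∣ Nat.card M := by
      obtain ⟨s, hs⟩ := P.2.exists_card_eq
      obtain ⟨r, -, hr⟩ := (Nat.dvd_prime_pow hp.out).1 (hs ▸ Subgroup.card_subgroup_dvd_card M)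
      have h1 := M.card_mul_index
      rw [hidx, hr, hs, ← pow_succ] at h1
      have h2 := Nat.pow_right_injective hp.out.two_le h1
      rw [hr]
      refine pow_dvd_pow p ?_
      have h3 := (Nat.pow_lt_pow_iff_right hp.out.one_lt).1 (hs ▸ hbP)
      omega
    obtain ⟨K, hK, hxK⟩ := Sylow.exists_subgroup_card_pow_prime_le p hdvd
      (Subgroup.zpowers (⟨x, hxM⟩ : M)) (by rw [Nat.card_zpowers, Subgroup.orderOf_mk, ha]) hab
    set E : Subgroup G := (K.map M.subtype).map (P : Subgroup G).subtype with hE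
    have hEcard : Nat.card E = p ^ b := by
      rw [hE, Subgroup.card_map_of_injective Subtype.val_injective,
        Subgroup.card_map_of_injective Subtype.val_injective, hK]
    have h1 := hsc E (by rw [hE]; exact Subgroup.map_subtype_le _) (Or.inl hEcard) x
      ⟨x, ⟨⟨x, hxM⟩, hxK (Subgroup.mem_zpowers _), rfl⟩, rfl⟩ g hg
    obtain ⟨y, hy, hye⟩ := h1
    obtain ⟨z, -, rfl⟩ := hy
    have : (⟨_, hg⟩ : (P : Subgroup G)) = z.1 := Subtype.ext hye.symm
    rw [this]
    exact z.2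
  · -- `x` generates a cyclic subgroup containing one of order `p^b`
    set e₀ : G := (x : G) ^ p ^ (a - b) with he₀
    have hxa : orderOf (x : G) = p ^ a := by rw [Subgroup.orderOf_coe, ha]
    have hoe : orderOf e₀ = p ^ b := by
      rw [he₀, orderOf_pow_of_dvd (pow_pos hp.out.pos _).ne' (hxa ▸ pow_dvd_pow p (by omega)), hxa,
        Nat.pow_div (by omega) hp.out.pos]
      congr 1
      omega
    have he₀P : e₀ ∈ (P : Subgroup G) := pow_mem x.2 _
    set E := Subgroup.zpowers e₀ with hE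
    have hgN : g ∈ Subgroup.normalizer (E : Set G) := by
      refine CfsgLib.Alperin.mem_normalizer_of_le_conj ?_
      rw [hE, MonoidHom.map_zpowers, Subgroup.zpowers_le]
      refine hsc E (Subgroup.zpowers_le.2 he₀P) (Or.inl (by rw [hE, Nat.card_zpowers, hoe])) e₀
        (Subgroup.mem_zpowers _) g ?_
      rw [he₀, ← conj_pow]
      exact pow_mem hg _
    have hPN : (P : Subgroup G) ≤ Subgroup.normalizer (E : Set G) := by
      intro u hu
      refine CfsgLib.Alperin.mem_normalizer_of_le_conj ?_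
      rw [hE, MonoidHom.map_zpowers, Subgroup.zpowers_le]
      exact hsc E (Subgroup.zpowers_le.2 he₀P) (Or.inl (by rw [hE, Nat.card_zpowers, hoe])) e₀
        (Subgroup.mem_zpowers _) u (mul_mem (mul_mem hu he₀P) (inv_mem hu))
    set N := Subgroup.normalizer (E : Set G) with hN
    have hlt : Nat.card N < m := by
      subst hm
      refine (Nat.le_of_dvd Nat.card_pos (Subgroup.card_subgroup_dvd_card N)).lt_of_ne fun h => hcyc ?_
      refine ⟨e₀, he₀P, hoe, fun v => ?_⟩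
      have hv : v ∈ N := by rw [Subgroup.eq_top_of_card_eq N h]; exact Subgroup.mem_top v
      exact (Subgroup.mem_normalizer_iff.1 hv e₀).1 (Subgroup.mem_zpowers e₀)
    have hcardP : Nat.card (P.subtype hPN : Subgroup N) = Nat.card (P : Subgroup G) :=
      Nat.card_congr (Subgroup.subgroupOfEquivOfLe hPN).toEquiv
    have hNp := ih _ hlt N rfl (fun q hq hqN => hmin q hq (hqN.trans (Subgroup.card_subgroup_dvd_card N)))
      (P.subtype hPN) (hcardP.symm ▸ hbP) (by
        intro F hF hFc y hy v hv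
        have h1 := hsc (F.map N.subtype)
          (by rintro _ ⟨w, hw, rfl⟩; exact hF hw)
          (by rwa [Subgroup.card_map_of_injective Subtype.val_injective]) y
          (Subgroup.mem_map_of_mem _ hy) v hv
        obtain ⟨w, hw, hwe⟩ := h1
        rwa [show v * y * v⁻¹ = w from Subtype.ext hwe.symm])
    obtain ⟨K, hKn, hKc, k, hk⟩ := CfsgLib.Transfer.hasNormalPComplement_iff_exists.mp hNp
    have hcompl := CfsgLib.Transfer.isComplement'_sylow hKc hk (P.subtype hPN)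
    obtain ⟨c, hcK, u, hu, hcu⟩ := Subgroup.mem_sup_of_normal_left.1
      (hcompl.sup_eq_top.symm ▸ Subgroup.mem_top (⟨g, hgN⟩ : N))
    -- `g x g⁻¹` is conjugate to `x` inside `P`
    set X : N := ⟨x, hPN x.2⟩ with hX
    set Y : N := u * X * u⁻¹ with hY
    have hYP : (Y : G) ∈ (P : Subgroup G) :=
      mul_mem (mul_mem (show (u : G) ∈ (P : Subgroup G) from hu) x.2)
        (inv_mem (show (u : G) ∈ (P : Subgroup G) from hu))
    have hgY : g * x * g⁻¹ = (c : G) * Y * (c : G)⁻¹ := by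
      rw [show g = (c : G) * u from (congrArg Subtype.val hcu).symm, hY, hX]
      push_cast
      group
    have hcY : c * Y * c⁻¹ * Y⁻¹ ∈ K := by
      have h1 := mul_mem hcK (hKn.conj_mem _ (inv_mem hcK) Y)
      simpa [mul_assoc] using h1
    have heq : c * Y * c⁻¹ * Y⁻¹ = 1 := by
      have hP' : (c * Y * c⁻¹ * Y⁻¹ : N) ∈ (P.subtype hPN : Subgroup N) := by
        change ((c * Y * c⁻¹ * Y⁻¹ : N) : G) ∈ (P : Subgroup G)
        push_cast
        rw [← hgY]
        exact mul_mem hg (inv_mem hYP)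
      exact CfsgLib.Transfer.eq_one_of_mem_pGroup_of_coprime (P.subtype hPN).2 hP'
        (hKc.coprime_dvd_left (by rw [← Subgroup.orderOf_mk _ hcY]; exact orderOf_dvd_natCard _))
    have hgY' : g * x * g⁻¹ = Y := by
      rw [hgY]
      have := congrArg Subtype.val (mul_inv_eq_one.1 heq)
      push_cast at this
      exact this
    have hMn : M.Normal := CfsgLib.PGroup.normal_of_coatom P.2 hM
    have : (⟨_, hg⟩ : (P : Subgroup G)) = ⟨u, hu⟩ * x * (⟨u, hu⟩ : (P : Subgroup G))⁻¹ := by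
      apply Subtype.ext
      change g * x * g⁻¹ = (u : G) * x * (u : G)⁻¹
      rw [hgY', hY, hX]
      rfl
    rw [this]
    exact hMn.conj_mem x hxM _

end Main

/-- The condition `gEg⁻¹ ∩ N(E) ≤ E` makes `E` normal in `P` and strongly closed in it. -/
theorem stronglyClosed_of_normalizer {G : Type*} [Group G] [Finite G] {p : ℕ} [Fact p.Prime]
    {P E : Subgroup G} (hP : IsPGroup p P) (hEP : E ≤ P)
    (h : ∀ g : G, E.map (MulAut.conj g).toMonoidHom ⊓ Subgroup.normalizer (E : Set G) ≤ E) :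
    P ≤ Subgroup.normalizer (E : Set G) ∧
      ∀ x ∈ E, ∀ g : G, g * x * g⁻¹ ∈ P → g * x * g⁻¹ ∈ E := by
  have hn : P ≤ Subgroup.normalizer (E : Set G) := by
    by_contra hcon
    set K := P ⊓ Subgroup.normalizer (E : Set G) with hK
    have hlt : K < P := lt_of_le_of_ne inf_le_left fun he => hcon (he ▸ inf_le_right)
    obtain ⟨z, hz, hzK⟩ := SetLike.exists_of_lt (CfsgLib.Alperin.lt_inf_normalizer hP hlt)
    refine hzK ⟨hz.1, CfsgLib.Alperin.mem_normalizer_of_le_conj ?_⟩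
    rintro _ ⟨e, he, rfl⟩
    have h1 : z * e * z⁻¹ ∈ K :=
      (Subgroup.mem_normalizer_iff.1 hz.2 e).1 ⟨hEP he, Subgroup.le_normalizer he⟩
    exact h z ⟨Subgroup.mem_map_of_mem _ he, h1.2⟩
  exact ⟨hn, fun x hx g hg => h g ⟨CfsgLib.Alperin.conj_mem_conj_map g hx, hn hg⟩⟩

end CfsgLib.LocalP
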