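import Mathlib

/-! Classical strongly `p`-embedded subgroups: normalizers of their `p`-subgroups, and Sylow subgroups. -/

set_option autoImplicit false

namespace CfsgLib.LocalP

variable {G : Type*} [Group G] {p : ℕ} [hp : Fact p.Prime]

theorem dvd_card_of_le [Finite G] {R K : Subgroup G} (hR : IsPGroup p R) (hR1 : R ≠ ⊥) (h : R ≤ K) :
    p ∣ Nat.card K := by
  obtain ⟨n, hn⟩ := IsPGroup.iff_card.mp hR
  refine dvd_trans ?_ (Subgroup.card_dvd_of_le h)
  rw [hn]
  refine dvd_pow_self p ?_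
  rintro rfl
  exact hR1 (Subgroup.card_eq_one.mp (by rw [hn, pow_zero]))

/-- Normalizers of nontrivial `p`-subgroups of a strongly embedded subgroup lie in it. -/
theorem normalizer_le [Finite G] {H R : Subgroup G}
    (hse : ∀ g : G, g ∉ H → ¬ p ∣ Nat.card ↥(H ⊓ H.map (MulAut.conj g).toMonoidHom))
    (hR : IsPGroup p R) (hR1 : R ≠ ⊥) (hRH : R ≤ H) : Subgroup.normalizer (R : Set G) ≤ H := by
  intro g hg
  by_contra hgH
  refine hse g hgH (dvd_card_of_le hR hR1 (le_inf hRH fun r hr => ?_))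
  refine ⟨g⁻¹ * r * g, hRH ?_, by simp [mul_assoc]⟩
  exact (Subgroup.mem_normalizer_iff''.mp hg r).mp hr

/-- A strongly embedded subgroup contains a Sylow subgroup. -/
theorem exists_sylow_le [Finite G] {H : Subgroup G} (hpH : p ∣ Nat.card H)
    (hse : ∀ g : G, g ∉ H → ¬ p ∣ Nat.card ↥(H ⊓ H.map (MulAut.conj g).toMonoidHom)) :
    ∃ P : Sylow p G, (P : Subgroup G) ≤ H := by
  obtain ⟨h, hh⟩ := exists_prime_orderOf_dvd_card' p hpH
  have hR : IsPGroup p (Subgroup.zpowers (h : G)) :=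
    IsPGroup.of_card (n := 1) (by rw [Nat.card_zpowers, Subgroup.orderOf_coe, hh, pow_one])
  obtain ⟨P, hP⟩ := hR.exists_le_sylow
  refine ⟨P, ?_⟩
  by_contra hPH
  have hne : H.subgroupOf (P : Subgroup G) ≠ ⊤ := fun e => hPH (Subgroup.subgroupOf_eq_top.mp e)
  haveI : Group.IsNilpotent ↥(P : Subgroup G) := P.isPGroup'.isNilpotent
  have hlt := Group.normalizerCondition_of_isNilpotent (G := ↥(P : Subgroup G))
    (H.subgroupOf (P : Subgroup G)) (lt_top_iff_ne_top.mpr hne)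
  obtain ⟨g, hg, hgH⟩ := SetLike.exists_of_lt hlt
  apply hgH
  rw [Subgroup.mem_subgroupOf]
  set R' : Subgroup G := H ⊓ (P : Subgroup G)
  refine normalizer_le hse (P.isPGroup'.to_le inf_le_right) ?_ inf_le_left (x := (g : G)) ?_
  · intro e
    have : (h : G) ∈ H ⊓ (P : Subgroup G) := ⟨h.2, hP (Subgroup.mem_zpowers _)⟩
    rw [e, Subgroup.mem_bot] at this
    rw [← Subgroup.orderOf_coe, this, orderOf_one] at hh
    exact hp.out.one_lt.ne hh
  · rw [Subgroup.mem_normalizer_iff]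
    intro x
    constructor
    · rintro ⟨hx1, hx2⟩
      have := (Subgroup.mem_normalizer_iff.mp hg ⟨x, hx2⟩).mp hx1
      exact ⟨this, (g * ⟨x, hx2⟩ * g⁻¹ : ↥(P : Subgroup G)).2⟩
    · rintro ⟨hx1, hx2⟩
      have hxP : x ∈ (P : Subgroup G) := by
        have := (P : Subgroup G).mul_mem ((P : Subgroup G).mul_mem ((P : Subgroup G).inv_mem g.2) hx2) g.2
        simpa [mul_assoc] using this
      exact ⟨(Subgroup.mem_normalizer_iff.mp hg ⟨x, hxP⟩).mpr hx1, hxP⟩

end CfsgLib.LocalP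

namespace CfsgLib.LocalP

variable {G : Type*} [Group G] {p : ℕ} [Fact p.Prime]

/-- A Sylow subgroup meeting a strongly embedded subgroup nontrivially lies in it. -/
theorem sylow_le_of_inf_ne_bot [Finite G] {H : Subgroup G}
    (hse : ∀ g : G, g ∉ H → ¬ p ∣ Nat.card ↥(H ⊓ H.map (MulAut.conj g).toMonoidHom))
    (P : Sylow p G) (hP : (P : Subgroup G) ⊓ H ≠ ⊥) : (P : Subgroup G) ≤ H := by
  by_contra hPH
  have hne : H.subgroupOf (P : Subgroup G) ≠ ⊤ := fun e => hPH (Subgroup.subgroupOf_eq_top.mp e)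
  have hnil : Group.IsNilpotent ↥(P : Subgroup G) := P.isPGroup'.isNilpotent
  have hlt := Group.normalizerCondition_of_isNilpotent (G := ↥(P : Subgroup G))
    (H.subgroupOf (P : Subgroup G)) (lt_top_iff_ne_top.mpr hne)
  obtain ⟨g, hg, hgH⟩ := SetLike.exists_of_lt hlt
  apply hgH
  rw [Subgroup.mem_subgroupOf]
  refine normalizer_le hse (P.isPGroup'.to_le inf_le_left) hP inf_le_right (x := (g : G)) ?_
  have key : ∀ a : ↥(P : Subgroup G), a ∈ Subgroup.normalizer ((H.subgroupOf (P : Subgroup G) : Subgroup ↥(P : Subgroup G)) : Set ↥(P : Subgroup G)) →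
      ∀ x, x ∈ (P : Subgroup G) ⊓ H → (a : G) * x * (a : G)⁻¹ ∈ (P : Subgroup G) ⊓ H := by
    rintro a ha x ⟨hx1, hx2⟩
    have := (Subgroup.mem_normalizer_iff.mp ha ⟨x, hx1⟩).mp hx2
    exact ⟨(a * ⟨x, hx1⟩ * a⁻¹ : ↥(P : Subgroup G)).2, this⟩
  rw [Subgroup.mem_normalizer_iff]
  intro x
  refine ⟨key g hg x, fun h => ?_⟩
  have := key g⁻¹ (inv_mem hg) _ h
  simpa [mul_assoc] using this

end CfsgLib.LocalP
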