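import Cfsg.Prelude.Def_SylowControl
import Cfsg.Prelude.Def_SylowChains
import Cfsg.Agent.Eq.Def_SylowControl
import Cfsg.Agent.Eq.Def_SylowChains
import Mathlib.GroupTheory.Sylow
import Mathlib.Data.Fin.Tuple.Basic
import Mathlib.Tactic.Group

/-!
Control of Sylow p-intersections, in the form of reflexive transitive closures of steps.
-/

set_option autoImplicit false

namespace CfsgLib.SylowChain

variable {G : Type*} [Group G] {p : ℕ}

/-! ### right conjugation -/

theorem mem_conjR {g : G} {X : Subgroup G} {u : G} :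
    u ∈ Cfsg.subgroupConjRight g X ↔ g * u * g⁻¹ ∈ X := by
  constructor
  · rintro ⟨v, hv, rfl⟩
    simpa [mul_assoc] using hv
  · intro h
    exact ⟨g * u * g⁻¹, h, by simp [mul_assoc]⟩

theorem conjR_conjR (g h : G) (X : Subgroup G) :
    Cfsg.subgroupConjRight h (Cfsg.subgroupConjRight g X) = Cfsg.subgroupConjRight (g * h) X := by
  ext u
  simp [mem_conjR, mul_assoc]

theorem conjR_one (X : Subgroup G) : Cfsg.subgroupConjRight 1 X = X := by
  ext u
  simp [mem_conjR]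

theorem conjR_mono (g : G) {X Y : Subgroup G} (h : X ≤ Y) :
    Cfsg.subgroupConjRight g X ≤ Cfsg.subgroupConjRight g Y := fun u hu =>
  mem_conjR.mpr (h (mem_conjR.mp hu))

theorem conjR_inf (g : G) (X Y : Subgroup G) :
    Cfsg.subgroupConjRight g (X ⊓ Y) =
      Cfsg.subgroupConjRight g X ⊓ Cfsg.subgroupConjRight g Y := by
  ext u
  simp [mem_conjR]

theorem conjR_eq_self {g : G} {X : Subgroup G} (h : g ∈ X) : Cfsg.subgroupConjRight g X = X := by
  ext u
  rw [mem_conjR, Subgroup.mul_mem_cancel_right _ (inv_mem h), Subgroup.mul_mem_cancel_left _ h]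

theorem mem_normalizer_iff_conjR {g : G} {X : Subgroup G} :
    g ∈ Subgroup.normalizer (X : Set G) ↔ Cfsg.subgroupConjRight g X = X := by
  rw [Subgroup.mem_normalizer_iff, SetLike.ext_iff]
  exact ⟨fun h u => by rw [mem_conjR]; exact (h u).symm, fun h u => by rw [← mem_conjR]; exact (h u).symm⟩

theorem card_conjR (g : G) (X : Subgroup G) :
    Nat.card ↥(Cfsg.subgroupConjRight g X) = Nat.card ↥X :=
  (Nat.card_congr (X.equivMapOfInjective _ (MulAut.conj g⁻¹).injective).toEquiv).symm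

theorem relIndex_conjR (g : G) (X Y : Subgroup G) :
    (Cfsg.subgroupConjRight g X).relIndex (Cfsg.subgroupConjRight g Y) = X.relIndex Y :=
  Subgroup.relIndex_map_map_of_injective X Y (MulAut.conj g⁻¹).injective

theorem conjR_ne_bot {g : G} {X : Subgroup G} (h : X ≠ ⊥) : Cfsg.subgroupConjRight g X ≠ ⊥ :=
  (Subgroup.map_eq_bot_iff_of_injective X (MulAut.conj g⁻¹).injective).not.mpr h

theorem conjR_normalizer (g : G) (X : Subgroup G) :
    Cfsg.subgroupConjRight g (Subgroup.normalizer (X : Set G)) =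
      Subgroup.normalizer (Cfsg.subgroupConjRight g X : Set G) := by
  ext u
  rw [mem_conjR, mem_normalizer_iff_conjR, mem_normalizer_iff_conjR, conjR_conjR]
  constructor <;> intro h
  · have h' := congrArg (Cfsg.subgroupConjRight g) h
    simpa [conjR_conjR, mul_assoc] using h'
  · have h' := congrArg (Cfsg.subgroupConjRight g⁻¹) h
    simpa [conjR_conjR, conjR_one, mul_assoc] using h'

/-- The right conjugate of a Sylow subgroup. -/
def conjS (g : G) (S : Sylow p G) : Sylow p G := g⁻¹ • S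

theorem coe_conjS (g : G) (S : Sylow p G) :
    ((conjS g S : Sylow p G) : Subgroup G) = Cfsg.subgroupConjRight g (S : Subgroup G) := rfl

theorem conjS_conjS (g h : G) (S : Sylow p G) : conjS h (conjS g S) = conjS (g * h) S := by
  simp [conjS, smul_smul]

theorem conjS_one (S : Sylow p G) : conjS 1 S = S := by simp [conjS]

theorem conjS_eq_self_iff {g : G} {S : Sylow p G} :
    conjS g S = S ↔ g ∈ Subgroup.normalizer ((S : Subgroup G) : Set G) := by
  rw [mem_normalizer_iff_conjR, ← coe_conjS]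
  exact ⟨fun h => by rw [h], fun h => Sylow.ext h⟩

theorem exists_conjS [Finite G] [Fact p.Prime] (S T : Sylow p G) : ∃ g : G, conjS g T = S := by
  obtain ⟨g, hg⟩ := MulAction.exists_smul_eq G T S
  exact ⟨g⁻¹, by simp [conjS, hg]⟩

/-! ### members -/

theorem mem_sylowMembers_iff [Finite G] [Fact p.Prime] {𝓕 : Set (Subgroup G)} {S X : Subgroup G} :
    X ∈ Cfsg.sylowMembers p 𝓕 S ↔ X ∈ 𝓕 ∧ IsPGroup p ↥(S ⊓ X : Subgroup G) ∧ ¬ p ∣ S.relIndex X := by
  constructor
  · rintro ⟨hX, P, hP⟩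
    refine ⟨hX, hP ▸ P.isPGroup'.map X.subtype, ?_⟩
    have : (P : Subgroup ↥X).index = S.relIndex X := by
      have h1 : (P : Subgroup ↥X) = S.subgroupOf X := by
        apply Subgroup.map_injective X.subtype_injective
        rw [hP, Subgroup.subgroupOf_map_subtype]
      rw [h1]; rfl
    exact this ▸ P.not_dvd_index
  · rintro ⟨hX, hp1, hp2⟩
    refine ⟨hX, IsPGroup.toSylow (P := S.subgroupOf X) ?_ hp2, ?_⟩
    · rw [← Subgroup.inf_subgroupOf_right]
      exact hp1.comap_of_injective X.subtype X.subtype_injective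
    · exact Subgroup.subgroupOf_map_subtype S X

theorem mem_sylowMembers_conjR [Finite G] [Fact p.Prime] {𝓕 : Set (Subgroup G)}
    (h𝓕 : Cfsg.IsNormalSet 𝓕) {S X : Subgroup G} (h : X ∈ Cfsg.sylowMembers p 𝓕 S) (g : G) :
    Cfsg.subgroupConjRight g X ∈ Cfsg.sylowMembers p 𝓕 (Cfsg.subgroupConjRight g S) := by
  obtain ⟨h1, h2, h3⟩ := mem_sylowMembers_iff.mp h
  refine mem_sylowMembers_iff.mpr ⟨h𝓕 X h1 g, ?_, by rw [relIndex_conjR]; exact h3⟩
  rw [← conjR_inf]
  exact h2.map _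

theorem mem_sylowMembers_of_le [Finite G] [Fact p.Prime] {𝓕 : Set (Subgroup G)} {X : Subgroup G}
    (hX : X ∈ 𝓕) (S : Sylow p G) (hS : (S : Subgroup G) ≤ X) :
    X ∈ Cfsg.sylowMembers p 𝓕 (S : Subgroup G) :=
  mem_sylowMembers_iff.mpr ⟨hX, by rw [inf_of_le_left hS]; exact S.isPGroup',
    fun h => S.not_dvd_index (h.trans (Subgroup.relIndex_dvd_index_of_le hS))⟩

/-! ### steps -/

/-- One step of a chain controlling the intersection `D`. -/
def Step (𝓕 : Set (Subgroup G)) (D : Subgroup G) (S T : Sylow p G) : Prop :=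
  ∃ (X : Subgroup G) (x : G), X ∈ Cfsg.sylowMembers p 𝓕 (S : Subgroup G) ∧
    X ∈ Cfsg.sylowMembers p 𝓕 (T : Subgroup G) ∧ x ∈ X ∧
    Cfsg.subgroupConjRight x (T : Subgroup G) = (S : Subgroup G) ∧ D ≤ (T : Subgroup G) ⊓ X

/-- Chains controlling the intersection `D`. -/
def Linked (𝓕 : Set (Subgroup G)) (D : Subgroup G) : Sylow p G → Sylow p G → Prop :=
  Relation.ReflTransGen (Step 𝓕 D)

theorem Step.mono {𝓕 : Set (Subgroup G)} {D E : Subgroup G} (h : D ≤ E) {S T : Sylow p G}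
    (hs : Step 𝓕 E S T) : Step 𝓕 D S T := by
  obtain ⟨X, x, h1, h2, h3, h4, h5⟩ := hs
  exact ⟨X, x, h1, h2, h3, h4, h.trans h5⟩

theorem Linked.mono {𝓕 : Set (Subgroup G)} {D E : Subgroup G} (h : D ≤ E) {S T : Sylow p G}
    (hl : Linked 𝓕 E S T) : Linked 𝓕 D S T :=
  Relation.ReflTransGen.mono (fun _ _ hs => Step.mono h hs) _ _ hl

theorem Step.conjS [Finite G] [Fact p.Prime] {𝓕 : Set (Subgroup G)} (h𝓕 : Cfsg.IsNormalSet 𝓕)
    {D : Subgroup G} {S T : Sylow p G} (hs : Step 𝓕 D S T) (g : G) :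
    Step 𝓕 (Cfsg.subgroupConjRight g D) (CfsgLib.SylowChain.conjS g S) (CfsgLib.SylowChain.conjS g T) := by
  obtain ⟨X, x, h1, h2, h3, h4, h5⟩ := hs
  refine ⟨Cfsg.subgroupConjRight g X, g⁻¹ * x * g, mem_sylowMembers_conjR h𝓕 h1 g,
    mem_sylowMembers_conjR h𝓕 h2 g, mem_conjR.mpr (by simpa [mul_assoc] using h3), ?_, ?_⟩
  · rw [coe_conjS, coe_conjS, conjR_conjR, ← h4, conjR_conjR]
    congr 1
    group
  · rw [coe_conjS, ← conjR_inf]
    exact conjR_mono g h5

theorem Linked.conjS [Finite G] [Fact p.Prime] {𝓕 : Set (Subgroup G)} (h𝓕 : Cfsg.IsNormalSet 𝓕)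
    {D : Subgroup G} {S T : Sylow p G} (hl : Linked 𝓕 D S T) (g : G) :
    Linked 𝓕 (Cfsg.subgroupConjRight g D) (CfsgLib.SylowChain.conjS g S)
      (CfsgLib.SylowChain.conjS g T) := by
  induction hl with
  | refl => exact Relation.ReflTransGen.refl
  | tail _ hs ih => exact ih.tail (hs.conjS h𝓕 g)

theorem linked_of_chain {𝓕 : Set (Subgroup G)} {D : Subgroup G} :
    ∀ (n : ℕ) (c : Fin (n + 1) → Sylow p G), (∀ i : Fin n, Step 𝓕 D (c i.castSucc) (c i.succ)) →
      Linked 𝓕 D (c 0) (c (Fin.last n)) := by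
  intro n
  induction n with
  | zero => intro c _; exact Relation.ReflTransGen.refl
  | succ n ih =>
    intro c h
    have h1 := ih (fun j => c j.castSucc) (fun i => by simpa using h i.castSucc)
    refine Relation.ReflTransGen.tail (r := Step 𝓕 D) ?_ (by simpa using h (Fin.last n))
    simpa [Linked] using h1

theorem chain_of_linked {𝓕 : Set (Subgroup G)} {D : Subgroup G} {S T : Sylow p G}
    (h : Linked 𝓕 D S T) : ∃ (n : ℕ) (c : Fin (n + 1) → Sylow p G), c 0 = S ∧ c (Fin.last n) = T ∧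
      ∀ i : Fin n, Step 𝓕 D (c i.castSucc) (c i.succ) := by
  induction h with
  | refl => exact ⟨0, fun _ => S, rfl, rfl, fun i => i.elim0⟩
  | @tail U V _ hs ih =>
    obtain ⟨n, c, h0, hn, hc⟩ := ih
    refine ⟨n + 1, Fin.snoc c V, ?_, by simp, fun i => ?_⟩
    · rw [show (0 : Fin (n + 1 + 1)) = (0 : Fin (n + 1)).castSucc from rfl, Fin.snoc_castSucc, h0]
    · rcases Fin.eq_castSucc_or_eq_last i with ⟨j, rfl⟩ | rfl
      · rw [← Fin.castSucc_succ, Fin.snoc_castSucc, Fin.snoc_castSucc]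
        exact hc j
      · rw [Fin.snoc_castSucc, Fin.succ_last, Fin.snoc_last, hn]
        exact hs

theorem controls_iff {𝓕 : Set (Subgroup G)} :
    Cfsg.ControlsSylowIntersections p 𝓕 ↔ ∀ S T : Sylow p G, S ≠ T →
      (S : Subgroup G) ⊓ (T : Subgroup G) ≠ ⊥ →
        Linked 𝓕 ((S : Subgroup G) ⊓ (T : Subgroup G)) S T := by
  constructor
  · intro h S T hne hD
    obtain ⟨n, c, X, x, h0, hn, hc⟩ := h S T hne hD
    have := linked_of_chain (𝓕 := 𝓕) (D := (S : Subgroup G) ⊓ (T : Subgroup G)) n c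
      (fun i => ⟨X i, x i, hc i⟩)
    rwa [h0, hn] at this
  · intro h S T hne hD
    obtain ⟨n, c, h0, hn, hc⟩ := chain_of_linked (h S T hne hD)
    choose X x hX using hc
    exact ⟨n, c, X, x, h0, hn, hX⟩

/-- Membership-preserving version of `Cfsg.ControlsSylowIntersections`. -/
theorem linked_of_controls {𝓕 : Set (Subgroup G)} (hc : Cfsg.ControlsSylowIntersections p 𝓕)
    {D : Subgroup G} (hD : D ≠ ⊥) {S T : Sylow p G} (hS : D ≤ (S : Subgroup G))
    (hT : D ≤ (T : Subgroup G)) : Linked 𝓕 D S T := by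
  rcases eq_or_ne S T with rfl | hne
  · exact Relation.ReflTransGen.refl
  · exact ((controls_iff.mp hc) S T hne fun h => hD (le_bot_iff.mp (h ▸ le_inf hS hT))).mono
      (le_inf hS hT)

/-! ### factorizations -/

/-- Products `y₁ ⋯ yₙ` through members at `S` moving the set `A` inside `S ∩ Yᵢ` at each stage. -/
inductive Fac (p : ℕ) (𝓕 : Set (Subgroup G)) (S : Subgroup G) (A : Set G) : G → Prop where
  | nil : Fac p 𝓕 S A 1
  | snoc {z y : G} (Y : Subgroup G) : Fac p 𝓕 S A z → Y ∈ Cfsg.sylowMembers p 𝓕 S → y ∈ Y →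
      Cfsg.conjRight (z * y) A ⊆ (S : Set G) ∩ (Y : Set G) → Fac p 𝓕 S A (z * y)

theorem fac_to_fin {𝓕 : Set (Subgroup G)} {S : Subgroup G} {A : Set G} {z : G}
    (h : Fac p 𝓕 S A z) : ∃ (n : ℕ) (Y : Fin n → Subgroup G) (y : Fin n → G),
      (∀ i : Fin n, Y i ∈ Cfsg.sylowMembers p 𝓕 S ∧ y i ∈ Y i) ∧ z = (List.ofFn y).prod ∧
      ∀ i : Fin n, Cfsg.conjRight (((List.ofFn y).take (i.val + 1)).prod) A ⊆ (S : Set G) ∩ (Y i : Set G) := by
  induction h with
  | nil => exact ⟨0, fun i => i.elim0, fun i => i.elim0, fun i => i.elim0, by simp, fun i => i.elim0⟩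
  | @snoc z y Y' _ hY hy hA ih =>
    obtain ⟨n, Y, ys, h1, h2, h3⟩ := ih
    have hl : List.ofFn (Fin.snoc ys y : Fin (n + 1) → G) = List.ofFn ys ++ [y] := by
      rw [List.ofFn_succ_last]
      simp
    refine ⟨n + 1, Fin.snoc Y Y', Fin.snoc ys y, fun i => ?_, by rw [hl, List.prod_append, List.prod_singleton, h2], fun i => ?_⟩
    · rcases Fin.eq_castSucc_or_eq_last i with ⟨j, rfl⟩ | rfl
      · simpa using h1 j
      · simpa using ⟨hY, hy⟩
    · rcases Fin.eq_castSucc_or_eq_last i with ⟨j, rfl⟩ | rfl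
      · rw [hl, Fin.snoc_castSucc, List.take_append_of_le_length (by simp [Nat.succ_le_iff])]
        exact h3 j
      · rw [hl, Fin.snoc_last, Fin.val_last, List.take_of_length_le (by simp)]
        simpa [h2] using hA

theorem fac_of_fin {𝓕 : Set (Subgroup G)} {S : Subgroup G} {A : Set G} :
    ∀ (n : ℕ) (Y : Fin n → Subgroup G) (y : Fin n → G),
      (∀ i : Fin n, Y i ∈ Cfsg.sylowMembers p 𝓕 S ∧ y i ∈ Y i) →
      (∀ i : Fin n, Cfsg.conjRight (((List.ofFn y).take (i.val + 1)).prod) A ⊆ (S : Set G) ∩ (Y i : Set G)) →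
      Fac p 𝓕 S A (List.ofFn y).prod := by
  intro n
  induction n with
  | zero => intro Y y _ _; simpa using Fac.nil
  | succ n ih =>
    intro Y y h1 h3
    have hl : List.ofFn y = List.ofFn (fun i : Fin n => y i.castSucc) ++ [y (Fin.last n)] := by
      rw [List.ofFn_succ_last]
    have h := ih (fun i => Y i.castSucc) (fun i => y i.castSucc) (fun i => h1 _) (fun i => by
      have := h3 i.castSucc
      rwa [hl, Fin.val_castSucc, List.take_append_of_le_length (by simp [Nat.succ_le_iff])] at this)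
    rw [hl, List.prod_append, List.prod_singleton]
    refine Fac.snoc _ h (h1 _).1 (h1 _).2 ?_
    have := h3 (Fin.last n)
    rwa [hl, Fin.val_last, List.take_of_length_le (by simp), List.prod_append,
      List.prod_singleton] at this

theorem Fac.mono {𝓕 : Set (Subgroup G)} {S : Subgroup G} {A B : Set G} (hAB : A ⊆ B) {z : G}
    (h : Fac p 𝓕 S B z) : Fac p 𝓕 S A z := by
  induction h with
  | nil => exact Fac.nil
  | snoc Y _ h1 h2 h3 ih => exact Fac.snoc Y ih h1 h2 ((Set.image_mono hAB).trans h3)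

theorem Fac.mem {𝓕 : Set (Subgroup G)} {S H : Subgroup G} {A : Set G}
    (hH : ∀ X ∈ Cfsg.sylowMembers p 𝓕 S, X ≤ H) {z : G} (h : Fac p 𝓕 S A z) : z ∈ H := by
  induction h with
  | nil => exact one_mem H
  | snoc Y _ h1 h2 _ ih => exact mul_mem ih (hH Y h1 h2)

theorem exists_fac_of_linked [Finite G] [Fact p.Prime] {𝓕 : Set (Subgroup G)}
    (h𝓕 : Cfsg.IsNormalSet 𝓕) {D : Subgroup G} {S T : Sylow p G} (h : Linked 𝓕 D S T) :
    ∃ z : G, Fac p 𝓕 (S : Subgroup G) (D : Set G) z ∧ CfsgLib.SylowChain.conjS z T = S := by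
  induction h with
  | refl => exact ⟨1, Fac.nil, conjS_one S⟩
  | @tail U V _ hs ih =>
    obtain ⟨z, hz, hzU⟩ := ih
    obtain ⟨X, x, h1, -, h3, h4, h5⟩ := hs
    have hxz : z * (z⁻¹ * x * z) = x * z := by group
    have hS : Cfsg.subgroupConjRight z (U : Subgroup G) = (S : Subgroup G) := by
      rw [← coe_conjS, hzU]
    refine ⟨z * (z⁻¹ * x * z), Fac.snoc (Cfsg.subgroupConjRight z X) hz ?_
      (mem_conjR.mpr (by simpa [mul_assoc] using h3)) ?_, ?_⟩
    · rw [← hS]
      exact mem_sylowMembers_conjR h𝓕 h1 z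
    · rw [hxz]
      rintro _ ⟨d, hd, rfl⟩
      obtain ⟨hdV, hdX⟩ := h5 hd
      refine ⟨?_, mem_conjR.mpr ?_⟩
      · rw [SetLike.mem_coe, ← hS, ← h4, conjR_conjR, mem_conjR]
        have e : x * z * ((x * z)⁻¹ * d * (x * z)) * (x * z)⁻¹ = d := by group
        rw [e]
        exact hdV
      · simpa [mul_assoc] using mul_mem (mul_mem (inv_mem h3) hdX) h3
    · apply Sylow.ext
      rw [hxz, coe_conjS, ← conjR_conjR, h4, hS]

theorem linked_of_fac [Finite G] [Fact p.Prime] {𝓕 : Set (Subgroup G)}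
    (h𝓕 : Cfsg.IsNormalSet 𝓕) {D : Subgroup G} {S : Sylow p G} {z : G}
    (h : Fac p 𝓕 (S : Subgroup G) (D : Set G) z) :
    Linked 𝓕 D S (CfsgLib.SylowChain.conjS z⁻¹ S) := by
  induction h with
  | nil =>
    rw [inv_one, conjS_one]
    exact Relation.ReflTransGen.refl
  | @snoc z y Y _ hY hy hA ih =>
    refine ih.tail ⟨Cfsg.subgroupConjRight z⁻¹ Y, z * y * z⁻¹, mem_sylowMembers_conjR h𝓕 hY _,
      ?_, mem_conjR.mpr (by simpa [mul_assoc] using hy), ?_, ?_⟩
    · have hY' : Cfsg.subgroupConjRight z⁻¹ Y = Cfsg.subgroupConjRight (z * y)⁻¹ Y := by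
        rw [mul_inv_rev, ← conjR_conjR, conjR_eq_self (inv_mem hy)]
      rw [hY']
      exact mem_sylowMembers_conjR h𝓕 hY _
    · rw [coe_conjS, coe_conjS, conjR_conjR]
      congr 1
      group
    · intro d hd
      obtain ⟨h1, h2⟩ := hA ⟨d, hd, rfl⟩
      refine ⟨?_, mem_conjR.mpr ?_⟩
      · show d ∈ Cfsg.subgroupConjRight (z * y)⁻¹ (S : Subgroup G)
        rw [mem_conjR]
        exact (inv_inv (z * y)).symm ▸ h1
      · have := mul_mem (mul_mem hy h2) (inv_mem hy)
        simpa [mul_assoc] using this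

/-- A p-subgroup of `K` lies in a Sylow subgroup of `G` inside `K` when `K` contains one. -/
theorem exists_sylow_between [Finite G] [Fact p.Prime] {K D : Subgroup G} (R : Sylow p G)
    (hR : (R : Subgroup G) ≤ K) (hD : IsPGroup p ↥D) (hDK : D ≤ K) :
    ∃ U : Sylow p G, D ≤ (U : Subgroup G) ∧ (U : Subgroup G) ≤ K := by
  obtain ⟨Q, hQ⟩ := (hD.comap_of_injective K.subtype K.subtype_injective :
    IsPGroup p ↥(D.subgroupOf K)).exists_le_sylow
  obtain ⟨k, hk⟩ := MulAction.exists_smul_eq ↥K (R.subtype hR) Q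
  refine ⟨(k : G) • R, fun d hd => ?_, fun u hu => ?_⟩
  · have hdQ : (⟨d, hDK hd⟩ : ↥K) ∈ (Q : Subgroup ↥K) := hQ hd
    rw [← hk] at hdQ
    obtain ⟨r, hr, he⟩ := hdQ
    exact ⟨r, hr, congrArg Subtype.val he⟩
  · obtain ⟨r, hr, rfl⟩ := hu
    exact mul_mem (mul_mem k.2 (hR hr)) (inv_mem k.2)

end CfsgLib.SylowChain
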